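import Cfsg.Prelude.Def_KGroupFacts
import Cfsg.Agent.H687.Gen

/-!
# Cross characteristic characters: the general argument (helper650)

* `Cross p r S` : the property of task 374 of helper687;
* `central_of` : in a finite group with abelian quotient modulo a cyclic normal subgroup of order `≤ 3`, the elements
  of `p`-power order, `p > 3`, are central;
* `cross_of` : the criterion.
-/

set_option autoImplicit false

namespace Cfsg.Agent.H650.CrossBase

open Cfsg

universe u

/-- There is an irreducible character of degree prime to `p`, not a power of `r`, invariant under the automorphisms of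
`p`-power order. -/
def Cross (p r : ℕ) (S : Type*) [Group S] : Prop := ∃ β : S → ℂ, IsIrrCharacter S β ∧
  (∃ b : ℕ, β 1 = b ∧ b ≠ 1 ∧ ¬ p ∣ b ∧ ∀ k : ℕ, b ≠ r ^ k) ∧
  ∀ φ : MulAut S, (∃ k : ℕ, orderOf φ = p ^ k) → ∀ s, β (φ s) = β s

/-- `Cross` is invariant under isomorphisms. -/
theorem Cross.of_equiv {p r : ℕ} {S T : Type*} [Group S] [Group T] (e : S ≃* T) (h : Cross p r T) : Cross p r S := by
  obtain ⟨β, hβ, ⟨b, hb, hb1, hpb, hrb⟩, hinv⟩ := h
  refine ⟨β ∘ e, Characters.Core.isIrr_comp e.toMonoidHom e.surjective hβ, ⟨b, ?_, hb1, hpb, hrb⟩, ?_⟩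
  · rw [Function.comp_apply, map_one]; exact hb
  · rintro φ ⟨k, hk⟩ s
    have h1 := hinv (MulAut.congr e φ) ⟨k, by
      rw [← hk]
      exact orderOf_injective (MulAut.congr e).toMonoidHom (MulAut.congr e).injective φ⟩ (e s)
    have h2 : (MulAut.congr e φ) (e s) = e (φ s) := by simp [MulAut.congr]
    rw [h2] at h1
    exact h1

/-! ### `p`-elements of the outer automorphism group -/

/-- Elements of `p`-power order are central. -/
theorem central_of {O Q : Type*} [Group O] [Finite O] [CommGroup Q] (f : O →* Q) (hcyc : IsCyclic f.ker)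
    (hcard : Nat.card f.ker ≤ 3) {p : ℕ} [hp : Fact p.Prime] (hp3 : 3 < p) {x : O} {m : ℕ} (hx : x ^ p ^ m = 1)
    (y : O) : x * y = y * x := by
  have hpos : 0 < Nat.card f.ker := Nat.card_pos
  -- `x` acts trivially on the kernel
  have h1 : MulAut.conjNormal (H := f.ker) x = 1 := by
    have h2 : orderOf (MulAut.conjNormal (H := f.ker) x) ∣ p ^ m := by
      apply orderOf_dvd_of_pow_eq_one
      rw [← map_pow, hx, map_one]
    have h3 : orderOf (MulAut.conjNormal (H := f.ker) x) ∣ Nat.card (MulAut f.ker) := orderOf_dvd_natCard _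
    rw [IsCyclic.card_mulAut] at h3
    have h4 : Nat.totient (Nat.card f.ker) ≤ 2 := by
      interval_cases Nat.card f.ker <;> decide
    have h5 : Nat.Coprime (p ^ m) (Nat.totient (Nat.card f.ker)) := by
      apply Nat.Coprime.pow_left
      rw [hp.1.coprime_iff_not_dvd]
      intro h
      have := Nat.le_of_dvd (Nat.totient_pos.2 hpos) h
      omega
    have h6 := Nat.dvd_one.1 (h5 ▸ Nat.dvd_gcd h2 h3)
    exact orderOf_eq_one_iff.1 h6
  obtain ⟨c, hc⟩ : ∃ c : O, c = x * y * x⁻¹ * y⁻¹ := ⟨_, rfl⟩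
  have hck : c ∈ f.ker := by
    rw [MonoidHom.mem_ker, hc, map_mul, map_mul, map_mul, map_inv, map_inv, mul_comm (f x), mul_inv_cancel_right,
      mul_inv_cancel]
  have hcx : x * c * x⁻¹ = c := by
    have h2 := congrArg (fun α : MulAut f.ker => ((α ⟨c, hck⟩ : f.ker) : O)) h1
    exact h2
  have hxy : x * y * x⁻¹ = c * y := by rw [hc]; group
  have key : ∀ n : ℕ, x ^ n * y * (x ^ n)⁻¹ = c ^ n * y := by
    intro n
    induction n with
    | zero => simp
    | succ n ih =>
      have hcn : x * c ^ n * x⁻¹ = c ^ n := by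
        have h7 : ∀ k : ℕ, x * c ^ k * x⁻¹ = (x * c * x⁻¹) ^ k := fun k => (conj_pow (a := x) (b := c)).symm
        rw [h7, hcx]
      calc x ^ (n + 1) * y * (x ^ (n + 1))⁻¹ = x * (x ^ n * y * (x ^ n)⁻¹) * x⁻¹ := by rw [pow_succ']; group
        _ = x * (c ^ n * y) * x⁻¹ := by rw [ih]
        _ = (x * c ^ n * x⁻¹) * (x * y * x⁻¹) := by group
        _ = c ^ n * (c * y) := by rw [hcn, hxy]
        _ = c ^ (n + 1) * y := by rw [pow_succ, mul_assoc]
  have h8 := key (p ^ m)
  rw [hx, one_mul, inv_one, mul_one] at h8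
  have h9 : c ^ p ^ m = 1 := by
    have := h8.symm
    rwa [mul_eq_right] at this
  have h10 : c ^ Nat.card f.ker = 1 := by
    have h11 : (⟨c, hck⟩ : f.ker) ^ Nat.card f.ker = 1 := pow_card_eq_one'
    exact congrArg Subtype.val h11
  have h12 : Nat.Coprime (p ^ m) (Nat.card f.ker) := by
    apply Nat.Coprime.pow_left
    rw [hp.1.coprime_iff_not_dvd]
    intro h
    have := Nat.le_of_dvd hpos h
    omega
  have h13 : c = 1 := by
    have h14 := Nat.dvd_gcd (orderOf_dvd_of_pow_eq_one h9) (orderOf_dvd_of_pow_eq_one h10)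
    rw [h12] at h14
    exact orderOf_eq_one_iff.1 (Nat.dvd_one.1 h14)
  rw [h13, one_mul] at hxy
  exact mul_inv_eq_iff_eq_mul.1 hxy

/-- Every automorphism of `p`-power order is, up to an inner automorphism, in a given Sylow `p`-subgroup. -/
theorem exists_inner_mul {S : Type u} [Group S] [Finite S] {Q : Type*} [CommGroup Q] (f : Cfsg.Out S →* Q)
    (hcyc : IsCyclic f.ker) (hcard : Nat.card f.ker ≤ 3) {p : ℕ} [hp : Fact p.Prime] (hp3 : 3 < p)
    (P : Sylow p (MulAut S)) {φ : MulAut S} {k : ℕ} (hφ : orderOf φ = p ^ k) :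
    ∃ (s : S), ∃ ψ ∈ P, φ = MulAut.conj s * ψ := by
  have hfin : Finite (MulAut S) := Finite.of_injective (fun α : MulAut S => (α : S → S)) DFunLike.coe_injective
  let π : MulAut S →* Cfsg.Out S := QuotientGroup.mk' (Cfsg.Inn S)
  have hπ : Function.Surjective π := QuotientGroup.mk'_surjective _
  have hfo : Finite (Cfsg.Out S) := Finite.of_surjective π hπ
  have hx : (π φ) ^ p ^ k = 1 := by rw [← map_pow, ← hφ, pow_orderOf_eq_one, map_one]
  have hcen := central_of f hcyc hcard hp3 hx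
  let Pb := P.mapSurjective hπ
  have hn : (Subgroup.zpowers (π φ)).Normal := by
    constructor
    intro n hn g
    have h1 : g * n * g⁻¹ = n := by
      obtain ⟨i, rfl⟩ := Subgroup.mem_zpowers_iff.1 hn
      have h2 : Commute g (π φ) := (hcen g).symm
      rw [(h2.zpow_right i).eq, mul_inv_cancel_right]
    rw [h1]
    exact hn
  have hzp : IsPGroup p (Subgroup.zpowers (π φ)) := by
    rintro ⟨n, hn⟩
    obtain ⟨i, rfl⟩ := Subgroup.mem_zpowers_iff.1 hn
    refine ⟨k, Subtype.ext ?_⟩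
    show ((π φ) ^ i) ^ p ^ k = 1
    rw [← zpow_natCast, ← zpow_mul, mul_comm, zpow_mul, zpow_natCast, hx, one_zpow]
  have hsup : IsPGroup p ((Pb : Subgroup (Cfsg.Out S)) ⊔ Subgroup.zpowers (π φ) : Subgroup _) :=
    Pb.isPGroup'.to_sup_of_normal_right hzp
  have hmax := Pb.is_maximal' hsup le_sup_left
  have hmem : π φ ∈ (Pb : Subgroup (Cfsg.Out S)) := by
    have h3 : π φ ∈ (Pb : Subgroup (Cfsg.Out S)) ⊔ Subgroup.zpowers (π φ) :=
      Subgroup.mem_sup_right (Subgroup.mem_zpowers _)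
    rwa [hmax] at h3
  obtain ⟨ψ, hψ, he⟩ := hmem
  have h4 : φ * ψ⁻¹ ∈ Cfsg.Inn S := by
    rw [← QuotientGroup.eq_one_iff]
    show π (φ * ψ⁻¹) = 1
    rw [map_mul, map_inv, he, mul_inv_cancel]
  obtain ⟨s, hs⟩ := h4
  exact ⟨s, ψ, hψ, by rw [hs, inv_mul_cancel_right]⟩

/-! ### a fixed class -/

/-- The action on the conjugacy classes. -/
@[reducible] def ccAct (S : Type u) [Group S] : MulAction (MulAut S) (ConjClasses S) where
  smul α c := ConjClasses.map α.toMonoidHom c
  one_smul c := by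
    induction c using Quotient.inductionOn with
    | h a => rfl
  mul_smul α β c := by
    induction c using Quotient.inductionOn with
    | h a => rfl

/-- A fixed point in an invariant subset. -/
theorem exists_fixed {Γ X : Type*} [Group Γ] [MulAction Γ X] {p : ℕ} [Fact p.Prime] (hΓ : IsPGroup p Γ) (s : Set X)
    (hs : ∀ (g : Γ) (x : X), x ∈ s → g • x ∈ s) (hc : ¬ p ∣ Nat.card s) : ∃ x ∈ s, ∀ g : Γ, g • x = x := by
  let A : SubMulAction Γ X := ⟨s, fun g {x} hx => hs g x hx⟩
  obtain ⟨x, hx⟩ := hΓ.nonempty_fixed_point_of_prime_not_dvd_card A hc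
  exact ⟨x, x.2, fun g => congrArg Subtype.val (hx g)⟩

attribute [local instance] ccAct

/-- A class fixed by a `p`-group of automorphisms, in a set of fewer than `p` classes. -/
theorem exists_fixed_class {S : Type u} [Group S] [Finite S] {p : ℕ} [hp : Fact p.Prime] (P : Subgroup (MulAut S))
    (hP : IsPGroup p P) (T : Set S) (hT : ∀ α : MulAut S, ∀ t ∈ T, α t ∈ T) (hne : T.Nonempty) (L : Finset S)
    (hL : L.card < p) (hcov : ∀ t ∈ T, ∃ l ∈ L, IsConj l t) : ∃ t ∈ T, ∀ α ∈ P, IsConj (α t) t := by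
  classical
  have hfc : Finite (ConjClasses S) := Finite.of_surjective ConjClasses.mk ConjClasses.mk_surjective
  let s : Set (ConjClasses S) := ConjClasses.mk '' T
  have hsub : s ⊆ ConjClasses.mk '' (L : Set S) := by
    rintro _ ⟨t, ht, rfl⟩
    obtain ⟨l, hl, hlt⟩ := hcov t ht
    exact ⟨l, hl, ConjClasses.mk_eq_mk_iff_isConj.2 hlt⟩
  have hcard : Nat.card s ≤ L.card := by
    have h1 : s.ncard ≤ (ConjClasses.mk '' (L : Set S)).ncard := Set.ncard_le_ncard hsub (Set.toFinite _)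
    have h2 : (ConjClasses.mk '' (L : Set S)).ncard ≤ (L : Set S).ncard := Set.ncard_image_le (Set.toFinite _)
    rw [Set.ncard_coe_finset] at h2
    rw [Nat.card_coe_set_eq]
    exact h1.trans h2
  have hpos : 0 < Nat.card s := by
    obtain ⟨t, ht⟩ := hne
    have : Nonempty s := ⟨⟨_, t, ht, rfl⟩⟩
    exact Nat.card_pos
  obtain ⟨c, ⟨t, ht, rfl⟩, hfix⟩ := exists_fixed (Γ := P) hP s (by
      rintro α _ ⟨t, ht, rfl⟩
      exact ⟨(α : MulAut S) t, hT _ t ht, rfl⟩) (by
      intro h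
      have := Nat.le_of_dvd hpos h
      omega)
  refine ⟨t, ht, fun α hα => ?_⟩
  have h1 := hfix ⟨α, hα⟩
  exact ConjClasses.mk_eq_mk_iff_isConj.1 h1

/-- **The criterion.** -/
theorem cross_of {S : Type u} [Group S] [Finite S] [IsSimpleGroup S] (hna : ∃ a b : S, a * b ≠ b * a)
    {Q : Type*} [CommGroup Q] (f : Cfsg.Out S →* Q) (hcyc : IsCyclic f.ker) (hcard : Nat.card f.ker ≤ 3)
    {p r : ℕ} [hp : Fact p.Prime] [hr : Fact r.Prime] (hp3 : 3 < p)
    (T : Set S) (hT : ∀ α : MulAut S, ∀ t ∈ T, α t ∈ T) (hne : T.Nonempty) (L : Finset S)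
    (hL : L.card < p) (hcov : ∀ t ∈ T, ∃ l ∈ L, IsConj l t) (hrT : ∀ t ∈ T, r ∣ orderOf t) : Cross p r S := by
  have hfin : Finite (MulAut S) := Finite.of_injective (fun α : MulAut S => (α : S → S)) DFunLike.coe_injective
  obtain ⟨P⟩ : Nonempty (Sylow p (MulAut S)) := inferInstance
  obtain ⟨y, hy, hfix⟩ := exists_fixed_class (P : Subgroup (MulAut S)) P.isPGroup' T hT hne L hL hcov
  obtain ⟨β, h1, h2, h3, h4⟩ := H687.exists_block_char hna (r := r) (P : Subgroup (MulAut S)) P.isPGroup' y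
    (hrT y hy) hfix
  refine ⟨(β : S → ℂ), β.2, ⟨charDegree (β : S → ℂ), H687.Irr.one_eq β, h1, h2, h3⟩, ?_⟩
  rintro φ ⟨k, hk⟩ s
  obtain ⟨g, ψ, hψ, rfl⟩ := exists_inner_mul f hcyc hcard hp3 P hk
  rw [MulAut.mul_apply, MulAut.conj_apply, Characters.Core.isIrr_isClassFunction β.2]
  exact h4 ψ hψ s

end Cfsg.Agent.H650.CrossBase
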