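import Cfsg.Agent.H650.CrossBase
import Cfsg.Agent.H183.OutPSL

/-!
# Cross characteristic characters of `PSL₂(q)` and `PSL₃(q)` (helper650)
-/

set_option autoImplicit false

namespace Cfsg.Agent.H650.CrossPSL

open Cfsg Matrix
open Cfsg.Agent.ClassicalGeometry.AutPSL.Root
open Cfsg.Agent.ClassicalGeometry.AutPSL.Auto
open Cfsg.Agent.ClassicalGeometry.AutPSL.Main
open Cfsg.Agent.H650.CrossBase

universe v

section general

variable {F : Type v} [Field F] {ι : Type} [Fintype ι] [DecidableEq ι]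

/-- Conjugation by elements of the same determinant. -/
theorem exists_conj (A D : GL ι F) (h : Matrix.GeneralLinearGroup.det A = Matrix.GeneralLinearGroup.det D) :
    ∃ B : SpecialLinearGroup ι F, ∀ g : SpecialLinearGroup ι F, cj A g = B * cj D g * B⁻¹ := by
  have h1 : Matrix.GeneralLinearGroup.det (A * D⁻¹) = 1 := by rw [map_mul, map_inv, h, mul_inv_cancel]
  have h' : ((A * D⁻¹ : GL ι F) : Matrix ι ι F).det = 1 := congrArg Units.val h1
  refine ⟨⟨((A * D⁻¹ : GL ι F) : Matrix ι ι F), h'⟩, fun g => ?_⟩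
  have h2 : cj A = cj (A * D⁻¹) * cj D := by rw [← map_mul, inv_mul_cancel_right]
  rw [h2, MulAut.mul_apply]
  have h3 : (A * D⁻¹ : GL ι F) = Matrix.SpecialLinearGroup.toGL ⟨((A * D⁻¹ : GL ι F) : Matrix ι ι F), h'⟩ := by
    apply Units.ext
    rfl
  have h4 : ∀ (B g : SpecialLinearGroup ι F), cj (Matrix.SpecialLinearGroup.toGL B) g = B * g * B⁻¹ := by
    intro B g
    apply Subtype.ext
    rfl
  conv_lhs => rw [h3]
  exact h4 _ _

/-- Conjugation by a matrix. -/
theorem cj_eq_of {D : GL ι F} {g g' : SpecialLinearGroup ι F}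
    (h : (D : Matrix ι ι F) * (g : Matrix ι ι F) = (g' : Matrix ι ι F) * (D : Matrix ι ι F)) : cj D g = g' := by
  apply Subtype.ext
  rw [coe_cj, h, mul_assoc, ← Units.val_mul, mul_inv_cancel, Units.val_one, mul_one]

theorem isConj_pr {g g' : SpecialLinearGroup ι F} (h : IsConj g g') :
    IsConj (pr g : ProjectiveSpecialLinearGroup ι F) (pr g') := by
  obtain ⟨c, hc⟩ := isConj_iff.1 h
  exact isConj_iff.2 ⟨pr c, by rw [← map_inv, ← map_mul, ← map_mul, hc]⟩

theorem isConj_map {G : Type*} [Group G] (α : MulAut G) {x y : G} (h : IsConj x y) : IsConj (α x) (α y) := by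
  obtain ⟨c, hc⟩ := isConj_iff.1 h
  exact isConj_iff.2 ⟨α c, by rw [← map_inv, ← map_mul, ← map_mul, hc]⟩

theorem tv_mul {i j : ι} (hij : i ≠ j) (a b : F) : Matrix.SpecialLinearGroup.transvection hij a *
    Matrix.SpecialLinearGroup.transvection hij b = Matrix.SpecialLinearGroup.transvection hij (a + b) := by
  apply Subtype.ext
  exact Matrix.transvection_mul_transvection_same i j hij a b

theorem tv_pow {i j : ι} (hij : i ≠ j) (a : F) (n : ℕ) : Matrix.SpecialLinearGroup.transvection hij a ^ n =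
    Matrix.SpecialLinearGroup.transvection hij ((n : F) * a) := by
  induction n with
  | zero => rw [pow_zero, Nat.cast_zero, zero_mul, Matrix.SpecialLinearGroup.transvection_coeff_zero]
  | succ n ih =>
    rw [pow_succ, ih, tv_mul]
    congr 1
    push_cast
    ring

theorem orderOf_pr_tv {r : ℕ} [hr : Fact r.Prime] [CharP F r] {i j : ι} (hij : i ≠ j) {a : F} (ha : a ≠ 0) :
    orderOf (pr (Matrix.SpecialLinearGroup.transvection hij a) : ProjectiveSpecialLinearGroup ι F) = r := by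
  apply orderOf_eq_prime
  · rw [← map_pow, tv_pow, CharP.cast_eq_zero, zero_mul, Matrix.SpecialLinearGroup.transvection_coeff_zero, map_one]
  · intro h
    rw [pr_eq_one_iff, Matrix.SpecialLinearGroup.mem_center_iff] at h
    obtain ⟨c, -, hc⟩ := h
    have h1 := congrFun (congrFun hc i) j
    have h2 : (Matrix.SpecialLinearGroup.transvection hij a : SpecialLinearGroup ι F).1 i j = a := by
      show ((1 : Matrix ι ι F) + single i j a) i j = a
      rw [Matrix.add_apply, one_apply_ne hij, single_apply_same, zero_add]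
    rw [h2, scalar_apply, diagonal_apply_ne _ hij] at h1
    exact ha h1.symm

end general

section two

variable {F : Type v} [Field F]

/-- The elements `(1, a; 0, 1)`. -/
def tv (a : F) : SpecialLinearGroup (Fin 2) F := Matrix.SpecialLinearGroup.transvection (Fin.zero_ne_one) a

/-- The diagonal matrix `(d, 0; 0, 1)`. -/
noncomputable def dg (d : Fˣ) : GL (Fin 2) F := Matrix.GeneralLinearGroup.mkOfDetNeZero !![(d : F), 0; 0, 1] (by simp)

theorem det_dg (d : Fˣ) : Matrix.GeneralLinearGroup.det (dg d) = d := by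
  apply Units.ext
  show (!![(d : F), 0; 0, 1] : Matrix (Fin 2) (Fin 2) F).det = d
  simp

theorem cj_dg (d : Fˣ) (a : F) : cj (dg d) (tv a) = tv (d * a) := by
  apply cj_eq_of
  show (!![(d : F), 0; 0, 1] : Matrix (Fin 2) (Fin 2) F) * (1 + single 0 1 a) = (1 + single 0 1 ((d : F) * a)) * !![(d : F), 0; 0, 1]
  ext i j
  fin_cases i <;> fin_cases j <;> simp [Matrix.mul_apply, Fin.sum_univ_two, single]

/-- The element `(v, 0; 0, v⁻¹)`. -/
def dv (v : Fˣ) : SpecialLinearGroup (Fin 2) F := ⟨!![(v : F), 0; 0, ((v⁻¹ : Fˣ) : F)], by simp⟩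

theorem isConj_tv (v : Fˣ) (a : F) : IsConj (tv a) (tv ((v : F) ^ 2 * a)) := by
  refine isConj_iff.2 ⟨dv v, ?_⟩
  rw [mul_inv_eq_iff_eq_mul]
  apply Subtype.ext
  show (!![(v : F), 0; 0, ((v⁻¹ : Fˣ) : F)] : Matrix (Fin 2) (Fin 2) F) * (1 + single 0 1 a) =
    (1 + single 0 1 ((v : F) ^ 2 * a)) * !![(v : F), 0; 0, ((v⁻¹ : Fˣ) : F)]
  have h : (v : F) * (v : F)⁻¹ = 1 := mul_inv_cancel₀ v.ne_zero
  ext i j
  fin_cases i <;> fin_cases j <;> simp [Matrix.mul_apply, Fin.sum_univ_two, single]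
  linear_combination -(v : F) * a * h

/-- **`PSL₂(q)`.** -/
theorem cross_psl2 [Finite F] {p r : ℕ} [Fact p.Prime] [Fact r.Prime] [CharP F r] (hp : 3 < p)
    (h4 : 4 ≤ Nat.card F) : Cross p r (ProjectiveSpecialLinearGroup (Fin 2) F) := by
  classical
  let _ : Fintype F := Fintype.ofFinite F
  rw [Nat.card_eq_fintype_card] at h4
  obtain ⟨f, hf⟩ : ∃ f : ℕ+, Fintype.card F = r ^ (f : ℕ) := by
    obtain ⟨n, -, hn⟩ := FiniteField.card F r
    exact ⟨n, hn⟩
  obtain ⟨φ, -, h2, h3⟩ := H183.OutPSL.out_two (F := F) f.pos hf (by rw [← hf]; exact h4)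
  have hs : IsSimpleGroup (ProjectiveSpecialLinearGroup (Fin 2) F) :=
    H183.OutPSL.simple_psl le_rfl (fun _ => h4)
  have hz := H183.OutPSL.center_psl (F := F) (n := 2) le_rfl (fun _ => h4)
  have hna : ∃ a b : ProjectiveSpecialLinearGroup (Fin 2) F, a * b ≠ b * a := by
    by_contra hcon
    push Not at hcon
    have h5 : Subgroup.center (ProjectiveSpecialLinearGroup (Fin 2) F) = ⊤ := by
      rw [eq_top_iff]
      intro x _
      rw [Subgroup.mem_center_iff]
      intro y
      exact hcon y x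
    rw [hz] at h5
    exact bot_ne_top h5
  -- a nonsquare, or one
  obtain ⟨nu, hnu⟩ : ∃ nu : F, ∀ a : F, a ≠ 0 → ∃ v : Fˣ, a = (v : F) ^ 2 * 1 ∨ a = (v : F) ^ 2 * nu := by
    by_cases hall : ∀ a : F, IsSquare a
    · refine ⟨1, fun a ha => ?_⟩
      obtain ⟨b, rfl⟩ := hall a
      have hb : b ≠ 0 := left_ne_zero_of_mul ha
      exact ⟨Units.mk0 b hb, Or.inl (by rw [Units.val_mk0]; ring)⟩
    · push Not at hall
      obtain ⟨nu, hnu⟩ := hall
      refine ⟨nu, fun a ha => ?_⟩
      have hnu0 : nu ≠ 0 := by rintro rfl; exact hnu IsSquare.zero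
      by_cases hsq : IsSquare a
      · obtain ⟨b, rfl⟩ := hsq
        have hb : b ≠ 0 := left_ne_zero_of_mul ha
        exact ⟨Units.mk0 b hb, Or.inl (by rw [Units.val_mk0]; ring)⟩
      · have h1 : IsSquare (a * nu⁻¹) := by
          rw [← quadraticChar_one_iff_isSquare (mul_ne_zero ha (inv_ne_zero hnu0)), map_mul]
          have hd' : ¬ IsSquare nu⁻¹ := fun h => hnu (by
            rw [← inv_inv nu]; exact h.inv)
          rw [quadraticChar_neg_one_iff_not_isSquare.2 hsq, quadraticChar_neg_one_iff_not_isSquare.2 hd']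
          norm_num
        obtain ⟨b, hb⟩ := h1
        have hb0 : b ≠ 0 := by
          rintro rfl
          rw [mul_zero] at hb
          exact mul_ne_zero ha (inv_ne_zero hnu0) hb
        refine ⟨Units.mk0 b hb0, Or.inr ?_⟩
        rw [Units.val_mk0, pow_two, ← hb, inv_mul_cancel_right₀ hnu0]
  refine cross_of hna φ h2 (by rw [h3]; exact (Nat.gcd_le_left _ (by norm_num)).trans (by norm_num)) hp
    {t | ∃ a : F, a ≠ 0 ∧ IsConj (pr (tv a)) t} ?_ ⟨pr (tv 1), 1, one_ne_zero, IsConj.refl _⟩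
    {pr (tv 1), pr (tv nu)} ?_ ?_ ?_
  · rintro α t ⟨a, ha, hat⟩
    obtain ⟨A, σ, rfl⟩ := surj_two (F := F) r α
    refine ⟨Matrix.GeneralLinearGroup.det A * σ a, mul_ne_zero (Units.ne_zero _) ((map_ne_zero σ).2 ha), ?_⟩
    have h5 : IsConj (lift (cj A * fld σ) (pr (tv a))) (lift (cj A * fld σ) t) :=
      isConj_map (lift (cj A * fld σ)) hat
    refine IsConj.trans ?_ h5
    rw [lift_pr, MulAut.mul_apply]
    have h6 : fld σ (tv a) = tv (σ a) := fld_transvection σ _ a
    rw [h6]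
    obtain ⟨B, hB⟩ := exists_conj A (dg (Matrix.GeneralLinearGroup.det A)) (det_dg _).symm
    rw [hB, cj_dg]
    exact isConj_pr (isConj_iff.2 ⟨B, rfl⟩)
  · refine lt_of_le_of_lt (Finset.card_le_two) (by omega)
  · rintro t ⟨a, ha, hat⟩
    obtain ⟨v, hv | hv⟩ := hnu a ha
    · refine ⟨pr (tv 1), by simp, IsConj.trans ?_ hat⟩
      rw [hv]
      exact isConj_pr (isConj_tv v 1)
    · refine ⟨pr (tv nu), by simp, IsConj.trans ?_ hat⟩
      rw [hv]
      exact isConj_pr (isConj_tv v nu)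
  · rintro t ⟨a, ha, hat⟩
    have h5 : orderOf (pr (tv a) : ProjectiveSpecialLinearGroup (Fin 2) F) = r := orderOf_pr_tv _ ha
    obtain ⟨c, hc⟩ := isConj_iff.1 hat
    rw [← hc, ← MulAut.conj_apply, MulEquiv.orderOf_eq, h5]

end two

section three

variable {F : Type v} [Field F]

/-- The elements `1 + a E₀₂`. -/
def tw (a : F) : SpecialLinearGroup (Fin 3) F :=
  Matrix.SpecialLinearGroup.transvection (show (0 : Fin 3) ≠ 2 by decide) a

/-- The diagonal matrix `(1, d, 1)`. -/
noncomputable def dh (d : Fˣ) : GL (Fin 3) F :=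
  Matrix.GeneralLinearGroup.mkOfDetNeZero !![1, 0, 0; 0, (d : F), 0; 0, 0, 1] (by simp [Matrix.det_fin_three])

theorem det_dh (d : Fˣ) : Matrix.GeneralLinearGroup.det (dh d) = d := by
  apply Units.ext
  show (!![1, 0, 0; 0, (d : F), 0; 0, 0, 1] : Matrix (Fin 3) (Fin 3) F).det = d
  simp [Matrix.det_fin_three]

theorem cj_dh (d : Fˣ) (a : F) : cj (dh d) (tw a) = tw a := by
  apply cj_eq_of
  show (!![1, 0, 0; 0, (d : F), 0; 0, 0, 1] : Matrix (Fin 3) (Fin 3) F) * (1 + single 0 2 a) =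
    (1 + single 0 2 a) * !![1, 0, 0; 0, (d : F), 0; 0, 0, 1]
  ext i j
  fin_cases i <;> fin_cases j <;> simp [Matrix.mul_apply, Fin.sum_univ_three, single]

/-- A Weyl element. -/
def wv (F : Type v) [Field F] : SpecialLinearGroup (Fin 3) F :=
  ⟨!![0, 0, 1; 0, 1, 0; -1, 0, 0], by simp [Matrix.det_fin_three]⟩

theorem isConj_itr : IsConj (tw (1 : F)) (itr (tw 1)) := by
  have h0 : itr (tw (1 : F)) = Matrix.SpecialLinearGroup.transvection (show (2 : Fin 3) ≠ 0 by decide) (-1) :=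
    itr_transvection _ _
  rw [h0]
  refine isConj_iff.2 ⟨wv F, ?_⟩
  rw [mul_inv_eq_iff_eq_mul]
  apply Subtype.ext
  show (!![0, 0, 1; 0, 1, 0; -1, 0, 0] : Matrix (Fin 3) (Fin 3) F) * (1 + single 0 2 1) =
    (1 + single 2 0 (-1)) * !![0, 0, 1; 0, 1, 0; -1, 0, 0]
  ext i j
  fin_cases i <;> fin_cases j <;> simp [Matrix.mul_apply, Fin.sum_univ_three, single]

/-- **`PSL₃(q)`.** -/
theorem cross_psl3 [Finite F] {p r : ℕ} [Fact p.Prime] [Fact r.Prime] [CharP F r] (hp : 3 < p) :
    Cross p r (ProjectiveSpecialLinearGroup (Fin 3) F) := by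
  classical
  let _ : Fintype F := Fintype.ofFinite F
  obtain ⟨f, hf⟩ : ∃ f : ℕ+, Fintype.card F = r ^ (f : ℕ) := by
    obtain ⟨n, -, hn⟩ := FiniteField.card F r
    exact ⟨n, hn⟩
  obtain ⟨φ, -, h2, h3⟩ := H183.OutPSL.out_three (F := F) (n := 3) f.pos hf le_rfl
  have hs : IsSimpleGroup (ProjectiveSpecialLinearGroup (Fin 3) F) :=
    H183.OutPSL.simple_psl (by norm_num) (fun h => by omega)
  have hz := H183.OutPSL.center_psl (F := F) (n := 3) (by norm_num) (fun h => by omega)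
  have hna : ∃ a b : ProjectiveSpecialLinearGroup (Fin 3) F, a * b ≠ b * a := by
    by_contra hcon
    push Not at hcon
    have h5 : Subgroup.center (ProjectiveSpecialLinearGroup (Fin 3) F) = ⊤ := by
      rw [eq_top_iff]
      intro x _
      rw [Subgroup.mem_center_iff]
      intro y
      exact hcon y x
    rw [hz] at h5
    exact bot_ne_top h5
  refine cross_of hna φ h2 (by rw [h3]; exact Nat.gcd_le_left _ (by norm_num)) hp
    {t | IsConj (pr (tw (1 : F))) t} ?_ ⟨pr (tw 1), IsConj.refl _⟩ {pr (tw 1)} ?_ ?_ ?_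
  · intro α t hat
    have h5 : IsConj (α (pr (tw (1 : F)))) (α t) := isConj_map α hat
    refine IsConj.trans ?_ h5
    have key : ∀ (A : GL (Fin 3) F) (σ : F ≃+* F),
        IsConj (pr (tw (1 : F)) : ProjectiveSpecialLinearGroup (Fin 3) F)
          (pr ((cj A * fld σ : MulAut (SpecialLinearGroup (Fin 3) F)) (tw 1))) := by
      intro A σ
      rw [MulAut.mul_apply]
      have h6 : fld σ (tw (1 : F)) = tw (σ 1) := fld_transvection σ _ 1
      rw [h6, map_one]
      obtain ⟨B, hB⟩ := exists_conj A (dh (Matrix.GeneralLinearGroup.det A)) (det_dh _).symm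
      rw [hB, cj_dh]
      exact isConj_pr (isConj_iff.2 ⟨B, rfl⟩)
    rcases surj_three (F := F) r (le_refl 3) α with ⟨A, σ, rfl⟩ | ⟨A, σ, rfl⟩
    · rw [lift_pr]
      exact key A σ
    · rw [lift_pr, MulAut.mul_apply]
      refine (key A σ).trans (isConj_pr ?_)
      exact isConj_map (cj A * fld σ) isConj_itr
  · rw [Finset.card_singleton]; omega
  · intro t hat
    exact ⟨_, Finset.mem_singleton_self _, hat⟩
  · intro t hat
    have h5 : orderOf (pr (tw (1 : F)) : ProjectiveSpecialLinearGroup (Fin 3) F) = r := orderOf_pr_tv _ one_ne_zero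
    obtain ⟨c, hc⟩ := isConj_iff.1 hat
    rw [← hc, ← MulAut.conj_apply, MulEquiv.orderOf_eq, h5]

end three

end Cfsg.Agent.H650.CrossPSL
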