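import Cfsg.Agent.H650.CrossBase
import Cfsg.Agent.H183.OutPSU

/-!
# Cross characteristic characters of `PSU₃(q)` (helper650)
-/

set_option autoImplicit false

namespace Cfsg.Agent.H650.CrossPSU

open Cfsg Matrix
open Cfsg.Agent.LieClassical.HermBasic Cfsg.Agent.LieClassical.HermSiegel Cfsg.Agent.LieClassical.HermGen
open Cfsg.Agent.ClassicalGeometry.PSUAutCount Cfsg.Agent.ClassicalGeometry.UnitAutBasic
open Cfsg.Agent.H650.CrossBase

universe v

variable {F : Type v} [Field F] [Fintype F] {q n : ℕ}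

theorem act_T_pow (hF : Fintype.card F = q ^ 2) {v : Fin n → F} (hv : hermForm n F q v v = 0) (k : ℕ)
    (x : Fin n → F) : act (T hF v ^ k) x = x + ((k : F) * (c0 hF * hermForm n F q x v)) • v := by
  induction k with
  | zero => rw [pow_zero, act_one, Nat.cast_zero, zero_mul, zero_smul, add_zero]
  | succ k ih =>
    rw [pow_succ', act_mul, ih, act_T hF hv, herm_add_left, herm_smul_left, hv, mul_zero, add_zero, add_assoc,
      ← add_smul]
    congr 2
    push_cast
    ring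

theorem orderOf_tau {r : ℕ} [hr : Fact r.Prime] [CharP F r] (hF : Fintype.card F = q ^ 2) (hn : 3 ≤ n) {v : Fin n → F}
    (hv : hermForm n F q v v = 0) (h0 : v ≠ 0) : orderOf (tau hF v) = r := by
  apply orderOf_eq_prime
  · rw [tau_def, ← map_pow]
    have h1 : T hF v ^ r = 1 := by
      apply ext_act
      intro x
      rw [act_T_pow hF hv, CharP.cast_eq_zero, zero_mul, zero_smul, add_zero, act_one]
    rw [h1, map_one]
  · rw [Ne, tau_eq_one_iff hF hn hv]
    exact h0

theorem isConj_tau (hF : Fintype.card F = q ^ 2) (hn : 3 ≤ n) {v w : Fin n → F} (hv : hermForm n F q v v = 0)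
    (hw : hermForm n F q w w = 0) (h0 : v ≠ 0) (h0' : w ≠ 0) : IsConj (tau hF v) (tau hF w) := by
  obtain ⟨g, -, hg⟩ := exists_map_iso hF hn le_rfl (mem_coordSub_top v) (mem_coordSub_top w) h0 h0' hv hw
  exact isConj_iff.2 ⟨pr n F q g, by rw [conj_tau hF g hv, hg]⟩

/-- **`PSU₃(q)`.** -/
theorem cross_psu3 {p r : ℕ} [Fact p.Prime] [hr : Fact r.Prime] [CharP F r] (hF : Fintype.card F = q ^ 2) (hq : q ≠ 2)
    (hp : 3 < p) : Cross p r (PSU 3 F q) := by
  classical
  obtain ⟨f, hf0, hf⟩ : ∃ f : ℕ, 1 ≤ f ∧ q = r ^ f := by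
    obtain ⟨m, -, hm⟩ := FiniteField.card F r
    have h1 : q ∣ r ^ (m : ℕ) := by rw [← hm, hF]; exact Dvd.intro_left (q ^ 1) (by ring)
    obtain ⟨f, -, hf⟩ := (Nat.dvd_prime_pow hr.1).1 h1
    refine ⟨f, ?_, hf⟩
    rcases Nat.eq_zero_or_pos f with h | h
    · exfalso
      have h2 := two_le hF
      rw [hf, h, pow_zero] at h2
      omega
    · exact h
  have h32 : ¬ ((3 : ℕ) = 3 ∧ q = 2) := fun h => hq h.2
  obtain ⟨φ, -, h2, h3⟩ := H183.OutPSU.out_psu (K := F) (n := 3) hf0 hf hF le_rfl h32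
  have hs : IsSimpleGroup (PSU 3 F q) := S0283.result hF 3 le_rfl h32
  have hfinG : Finite (Cfsg.GU 3 F q) := LieClassical.GUOrder.finite_GU 3
  have hfinP : Finite (PSU 3 F q) := Finite.of_surjective _ (pr_surjective (n := 3) (F := F) (q := q))
  have hperf : commutator (PSU 3 F q) = ⊤ := by
    have h3 := Cfsg.Agent.LieClassical.HermPerfect.commutator_SU_eq_top hF (le_refl 3) h32
    have h4 : (commutator (SU 3 F q)).map (pr 3 F q) = commutator (PSU 3 F q) := by
      rw [commutator_def, commutator_def, Subgroup.map_commutator, ← MonoidHom.range_eq_map,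
        MonoidHom.range_eq_top.2 pr_surjective]
    rw [← h4, h3, ← MonoidHom.range_eq_map, MonoidHom.range_eq_top.2 pr_surjective]
  have hz : Subgroup.center (PSU 3 F q) = ⊥ := H183.OutPSU.center_eq_bot_of_perfect hperf
  have hna : ∃ a b : PSU 3 F q, a * b ≠ b * a := by
    by_contra hcon
    push Not at hcon
    have h5 : Subgroup.center (PSU 3 F q) = ⊤ := by
      rw [eq_top_iff]
      intro x _
      rw [Subgroup.mem_center_iff]
      intro y
      exact hcon y x
    rw [hz] at h5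
    exact bot_ne_top h5
  obtain ⟨v₀, hv₀, hv0⟩ : ∃ v : Fin 3 → F, hermForm 3 F q v v = 0 ∧ v ≠ 0 := by
    obtain ⟨v, v', -, -, -, -, -, h1, -, h2⟩ := exists_hyp_pair hF (show (0 : Fin 3) ≠ 1 by decide)
    refine ⟨v, h1, ?_⟩
    rintro rfl
    rw [herm_zero_left] at h2
    exact zero_ne_one h2
  have hord : ∀ t : PSU 3 F q, (∃ v : Fin 3 → F, hermForm 3 F q v v = 0 ∧ v ≠ 0 ∧ t = tau hF v) → orderOf t = r := by
    rintro t ⟨v, hv, h0, rfl⟩
    exact orderOf_tau hF le_rfl hv h0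
  refine cross_of hna φ h2 (by rw [h3]; exact Nat.gcd_le_left _ (by norm_num)) hp
    {t | ∃ v : Fin 3 → F, hermForm 3 F q v v = 0 ∧ v ≠ 0 ∧ t = tau hF v} ?_ ⟨tau hF v₀, v₀, hv₀, hv0, rfl⟩
    {tau hF v₀} ?_ ?_ ?_
  · rintro α t ⟨v, hv, h0, rfl⟩
    obtain ⟨A, ρ, rfl⟩ := Cfsg.Agent.ClassicalGeometry.PSUAutMain.exists_toAut hF le_rfl h32 α
    obtain ⟨s, hs0, hs⟩ := exists_r hF ρ
    refine ⟨s • (gm A *ᵥ fun i => ρ (v i)), ?_, ?_, toAut_tau hF A ρ hs hv⟩
    · exact iso_smul s (by rw [herm_semi, hv, map_zero])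
    · intro h
      rcases smul_eq_zero.1 h with h5 | h5
      · exact hs0 h5
      · apply h0
        have h6 := congrArg (fun x => gm A⁻¹ *ᵥ x) h5
        simp only [gm_inv_mulVec, mulVec_zero] at h6
        funext i
        have h7 := congrFun h6 i
        exact (map_eq_zero ρ).1 h7
  · rw [Finset.card_singleton]; omega
  · rintro t ⟨v, hv, h0, rfl⟩
    exact ⟨_, Finset.mem_singleton_self _, isConj_tau hF le_rfl hv₀ hv hv0 h0⟩
  · intro t ht
    rw [hord t ht]

end Cfsg.Agent.H650.CrossPSU
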