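import Cfsg.Agent.H415.Cross
import Cfsg.Agent.H650.CrossPSL
import Cfsg.Agent.H650.CrossPSU

/-!
# The rows `PSL₂`, `PSL₃`, `PSU₃` for the predicate `Cross` of helper415 (helper650)
-/

set_option autoImplicit false

namespace Cfsg.Agent.H650.CrossH415

open Cfsg Matrix

universe v

theorem cross_psl2 {F : Type v} [Field F] [Finite F] {p r : ℕ} [Fact p.Prime] [Fact r.Prime] [CharP F r] (hp : 3 < p)
    (h4 : 4 ≤ Nat.card F) : H415.Cross.Cross p r (ProjectiveSpecialLinearGroup (Fin 2) F) :=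
  CrossPSL.cross_psl2 hp h4

theorem cross_psl3 {F : Type v} [Field F] [Finite F] {p r : ℕ} [Fact p.Prime] [Fact r.Prime] [CharP F r] (hp : 3 < p) :
    H415.Cross.Cross p r (ProjectiveSpecialLinearGroup (Fin 3) F) :=
  CrossPSL.cross_psl3 hp

theorem cross_psu3 {F : Type v} [Field F] [Fintype F] {q p r : ℕ} [Fact p.Prime] [Fact r.Prime] [CharP F r]
    (hF : Fintype.card F = q ^ 2) (hq : q ≠ 2) (hp : 3 < p) : H415.Cross.Cross p r (PSU 3 F q) :=
  CrossPSU.cross_psu3 hF hq hp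

end Cfsg.Agent.H650.CrossH415
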