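import Mathlib
import Cfsg.Prelude.Def_Transfer
import Cfsg.Agent.H650.E27Group

/-!
# `E27Dat` for extraspecial Sylow 3-subgroups of order 27
-/

set_option autoImplicit false

namespace Cfsg.Agent.H650.E27

open Cfsg Subgroup

theorem E27Dat.of_extraspecial {G : Type*} [Group G] [Finite G] (P : Sylow 3 G)
    (hE : IsExtraspecial 3 ↥(P : Subgroup G)) (h27 : Nat.card ↥(P : Subgroup G) = 27) {z : G}
    (hz3 : orderOf z = 3) (hzc : z ∈ center G) : E27Dat P z := by
  have hn : (zpowers z).Normal := ⟨fun n hn g => by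
    have h1 := mem_center_iff.1 ((zpowers_le.2 hzc) hn) g
    rw [h1, mul_inv_cancel_right]; exact hn⟩
  have hp : IsPGroup 3 (zpowers z) :=
    IsPGroup.of_card (n := 1) (by rw [Nat.card_zpowers, hz3, pow_one])
  have hzP : z ∈ (P : Subgroup G) := (IsPGroup.le_sylow_of_normal hp P) (mem_zpowers z)
  set z' : ↥(P : Subgroup G) := ⟨z, hzP⟩ with hz'
  have hz'o : orderOf z' = 3 := (Subgroup.orderOf_coe z').symm.trans hz3
  have hZ : zpowers z' = center ↥(P : Subgroup G) := by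
    apply Subgroup.eq_of_le_of_card_ge
    · rw [zpowers_le, mem_center_iff]
      intro g
      exact Subtype.ext (mem_center_iff.1 hzc g)
    · rw [hE.2, Nat.card_zpowers, hz'o]
  have key : ∀ u ∈ (P : Subgroup G), u ∉ zpowers z →
      ∃ g ∈ (P : Subgroup G), g * u * g⁻¹ = u * z := ?_
  · refine ⟨hzc, hz3, h27, fun u hu huz => ?_, fun u hu huz => ?_⟩
    · obtain ⟨g, hg, hgu⟩ := key u hu huz
      refine ⟨g, hg, fun hc => ?_⟩
      rw [hc, mul_inv_cancel_right] at hgu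
      rw [mul_eq_left.1 hgu.symm, orderOf_one] at hz3
      omega
    · obtain ⟨g, -, hgu⟩ := key u hu huz
      exact ⟨g, hgu⟩
  intro u hu huz
  have hu1 : (⟨u, hu⟩ : ↥(P : Subgroup G)) ∉ center ↥(P : Subgroup G) := by
    rw [← hZ]
    intro h1
    obtain ⟨i, hi⟩ := mem_zpowers_iff.1 h1
    exact huz (mem_zpowers_iff.2 ⟨i, congrArg Subtype.val hi⟩)
  rw [mem_center_iff] at hu1
  push Not at hu1
  obtain ⟨y, hy⟩ := hu1
  have hw : y * ⟨u, hu⟩ * y⁻¹ * (⟨u, hu⟩ : ↥(P : Subgroup G))⁻¹ ∈ zpowers z' := by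
    rw [hZ, ← hE.1.2.2]
    exact Subgroup.commutator_mem_commutator (mem_top y) (mem_top _)
  obtain ⟨i, hi⟩ := mem_zpowers_iff.1 hw
  have h3 : (0 : ℤ) ≤ i % 3 := Int.emod_nonneg _ (by norm_num)
  have h4 : i % 3 < 3 := Int.emod_lt_of_pos _ (by norm_num)
  have h5 : z' ^ i = z' ^ (i % 3) := by
    have : (i % 3 : ℤ) = i % (orderOf z' : ℤ) := by rw [hz'o]; rfl
    rw [this, zpow_mod_orderOf]
  rw [h5] at hi
  have hcom : ∀ g : G, g * z = z * g := fun g => mem_center_iff.1 hzc g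
  have hz31 : z ^ 3 = 1 := by rw [← hz3, pow_orderOf_eq_one]
  have h6 : i % 3 = 0 ∨ i % 3 = 1 ∨ i % 3 = 2 := by omega
  rcases h6 with h6 | h6 | h6 <;> rw [h6] at hi
  · exfalso
    apply hy
    rw [zpow_zero] at hi
    have h7 := mul_inv_eq_one.1 hi.symm
    exact mul_inv_eq_iff_eq_mul.1 h7
  · refine ⟨y, y.2, ?_⟩
    have h7 : z = y * u * (y : G)⁻¹ * u⁻¹ := by
      have := congrArg Subtype.val hi
      rw [zpow_one] at this
      exact this
    rw [hcom]
    rw [h7, inv_mul_cancel_right]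
  · refine ⟨(y : G)⁻¹, inv_mem y.2, ?_⟩
    have h7 : z ^ 2 = y * u * (y : G)⁻¹ * u⁻¹ := by
      have h8 : z' ^ (2 : ℤ) = z' ^ 2 := by exact_mod_cast zpow_natCast z' 2
      rw [h8] at hi
      exact congrArg Subtype.val hi
    have h8 : (y : G) * u * (y : G)⁻¹ = z ^ 2 * u := by rw [h7, inv_mul_cancel_right]
    have h9 : u * (y : G)⁻¹ = (y : G)⁻¹ * (z ^ 2 * u) := by rw [← h8]; group
    have h10 : (y : G)⁻¹ * u * y * z ^ 2 = u := by
      have e : z ^ 2 * u = u * z ^ 2 := by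
        rw [pow_two, mul_assoc, ← hcom u, ← mul_assoc, ← hcom u, mul_assoc]
      have : u = (y : G)⁻¹ * (u * z ^ 2) * y := by
        rw [← e, ← h9, inv_mul_cancel_right]
      have e2 : z ^ 2 * (y : G) = y * z ^ 2 := by
        rw [pow_two, mul_assoc, ← hcom y, ← mul_assoc, ← hcom y, mul_assoc]
      calc (y : G)⁻¹ * u * y * z ^ 2 = (y : G)⁻¹ * u * (y * z ^ 2) := by group
        _ = (y : G)⁻¹ * u * (z ^ 2 * y) := by rw [e2]
        _ = (y : G)⁻¹ * (u * z ^ 2) * y := by group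
        _ = u := this.symm
    rw [inv_inv]
    calc (y : G)⁻¹ * u * y = (y : G)⁻¹ * u * y * (z ^ 2 * z) := by
          rw [← pow_succ, hz31, mul_one]
      _ = ((y : G)⁻¹ * u * y * z ^ 2) * z := by group
      _ = u * z := by rw [h10]

/-- `E27Dat` from fusion alone: if every `u ∈ P` outside `⟨z⟩` is conjugate to `u z`, then none is
central in `P` (Burnside). -/
theorem E27Dat.of_fusion {G : Type*} [Group G] [Finite G] (P : Sylow 3 G) {z : G}
    (hzc : z ∈ center G) (hz3 : orderOf z = 3) (h27 : Nat.card (P : Subgroup G) = 27)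
    (hconj : ∀ u ∈ (P : Subgroup G), u ∉ zpowers z → ∃ g : G, g * u * g⁻¹ = u * z) :
    E27Dat P z := by
  refine ⟨hzc, hz3, h27, fun u hu huz => ?_, hconj⟩
  have hn : (zpowers z).Normal := ⟨fun n hn g => by
    have h1 := mem_center_iff.1 ((zpowers_le.2 hzc) hn) g
    rw [h1, mul_inv_cancel_right]; exact hn⟩
  have hp : IsPGroup 3 (zpowers z) :=
    IsPGroup.of_card (n := 1) (by rw [Nat.card_zpowers, hz3, pow_one])
  have hzP : z ∈ (P : Subgroup G) := (IsPGroup.le_sylow_of_normal hp P) (mem_zpowers z)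
  by_contra hcon
  push Not at hcon
  obtain ⟨g, hg⟩ := hconj u hu huz
  have hcu : u ∈ centralizer ((P : Subgroup G) : Set G) := by
    rw [mem_centralizer_iff]
    exact fun y hy => hcon y hy
  have hcz : z ∈ centralizer ((P : Subgroup G) : Set G) := by
    rw [mem_centralizer_iff]
    exact fun y _ => mem_center_iff.1 hzc y
  have hcuz : (g⁻¹)⁻¹ * u * g⁻¹ ∈ centralizer ((P : Subgroup G) : Set G) := by
    rw [inv_inv, hg]
    exact mul_mem hcu hcz
  obtain ⟨n, hnN, hnu⟩ := Sylow.conj_eq_normalizer_conj_of_mem_centralizer P u g⁻¹ hcu hcuz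
  rw [inv_inv, hg] at hnu
  -- `n` acts on `⟨u, z⟩` with order prime to 3
  have hpow : ∀ m : ℕ, (n⁻¹) ^ m * u * ((n⁻¹) ^ m)⁻¹ = u * z ^ m := by
    intro m
    induction m with
    | zero => simp
    | succ m ih =>
      have hz' : ∀ x : G, x * z ^ m = z ^ m * x := fun x =>
        (Commute.pow_right (show Commute x z from mem_center_iff.1 hzc x) m)
      calc (n⁻¹) ^ (m + 1) * u * ((n⁻¹) ^ (m + 1))⁻¹
          = n⁻¹ * ((n⁻¹) ^ m * u * ((n⁻¹) ^ m)⁻¹) * n := by rw [pow_succ']; group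
        _ = n⁻¹ * (u * z ^ m) * n := by rw [ih]
        _ = n⁻¹ * u * (z ^ m * n) := by group
        _ = n⁻¹ * u * (n * z ^ m) := by rw [hz' n]
        _ = (n⁻¹ * u * n) * z ^ m := by group
        _ = u * z * z ^ m := by rw [← hnu]
        _ = u * z ^ (m + 1) := by rw [pow_succ', mul_assoc]
  set N := normalizer ((P : Subgroup G) : Set G) with hN
  have hPN : ((P : Subgroup G).subgroupOf N).Normal := inferInstance
  set m := ((P : Subgroup G).subgroupOf N).index with hm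
  have hmem : (n⁻¹) ^ m ∈ (P : Subgroup G) := by
    have h1 : (⟨n⁻¹, inv_mem hnN⟩ : N) ^ m ∈ (P : Subgroup G).subgroupOf N :=
      Subgroup.pow_index_mem _ _
    exact h1
  have h1 := hpow m
  have h2 := hcon _ hmem
  rw [h2, mul_inv_cancel_right] at h1
  have h3 : z ^ m = 1 := mul_eq_left.1 h1.symm
  have h4 : 3 ∣ m := by rw [← hz3]; exact orderOf_dvd_of_pow_eq_one h3
  have h5 : ¬ 3 ∣ (P : Subgroup G).index := P.not_dvd_index
  apply h5
  have h6 : m ∣ (P : Subgroup G).index := Subgroup.relIndex_dvd_index_of_le le_normalizer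
  exact h4.trans h6

end Cfsg.Agent.H650.E27
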