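import Mathlib
import Cfsg.Agent.H650.E27Central
import Cfsg.Agent.H633.Principal

/-!
# The principal 3-block of a central extension: heights and the exclusion of `k = 9`

* `card_height_zero` (E3): the characters of height zero in `B₀(G)` are the inflations of the
  members of `B₀(G/⟨z⟩)` of degree prime to 3;
* `no_nine` (E4): `k(B₀(G/⟨z⟩)) = 9` is impossible when the members of `B₀(G/⟨z⟩)` have a constant
  value `±1` on the 3-singular elements.
-/

set_option autoImplicit false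
set_option linter.unusedSectionVars false

namespace Cfsg.Agent.H650.E27

open Cfsg Subgroup
open Cfsg.Agent.H644.CentralQuot Cfsg.Agent.H613.RegGram Cfsg.Agent.H613.ContribVal
open Cfsg.Agent.H608.BlockRank Cfsg.Agent.Characters
open Cfsg.Agent.Blocks.Blau
open scoped ComplexConjugate

section singular

variable {H : Type*} [Group H] [Fintype H] {p : ℕ} [Fact p.Prime] {M : Ideal AlgInt}

open Classical in
/-- The Gram form on the 3-regular elements. -/
theorem rg_eq_sub (B : Set (IrrCharacter H)) (ε : IrrCharacter H → ℤ)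
    (hval : ∀ χ ∈ B, ∀ h : H, p ∣ orderOf h → (χ : H → ℂ) h = ε χ) {χ χ' : IrrCharacter H}
    (hχ : χ ∈ B) (hχ' : χ' ∈ B) :
    rg p (χ : H → ℂ) (χ' : H → ℂ) = (if χ = χ' then 1 else 0) -
      ((Nat.card H : ℂ)⁻¹ * ((Finset.univ.filter fun h : H => p ∣ orderOf h).card : ℂ)) *
        (ε χ * ε χ') := by
  have h1 := Core.classInner_irr χ.2 χ'.2
  rw [Core.classInner_def, ← Finset.sum_filter_add_sum_filter_not Finset.univ
    (fun h : H => p ∣ orderOf h)] at h1
  have h2 : ∑ h : H with p ∣ orderOf h, (χ : H → ℂ) h * conj ((χ' : H → ℂ) h) =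
      ((Finset.univ.filter fun h : H => p ∣ orderOf h).card : ℂ) * (ε χ * ε χ') := by
    rw [Finset.sum_congr rfl (g := fun _ => (ε χ * ε χ' : ℂ)), Finset.sum_const, nsmul_eq_mul]
    intro h hh
    have hh' := (Finset.mem_filter.1 hh).2
    rw [hval χ hχ h hh', hval χ' hχ' h hh', map_intCast]
  rw [h2] at h1
  rw [rg_def, H613.Contrib.pair_eq_sum_filter]
  have h3 : (if (χ : H → ℂ) = (χ' : H → ℂ) then (1 : ℂ) else 0) = if χ = χ' then 1 else 0 := by
    by_cases h : χ = χ'
    · rw [if_pos h, if_pos (congrArg Subtype.val h)]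
    · rw [if_neg h, if_neg (fun h' => h (Subtype.ext h'))]
  rw [h3] at h1
  rw [← h1]
  ring

open Classical in
theorem nine_mul_eq_one (hM : IsPModular p M) {B : Set (IrrCharacter H)} (hB : IsPBlock M B)
    (ε : IrrCharacter H → ℤ) (hε : ∀ χ ∈ B, ε χ = 1 ∨ ε χ = -1)
    (hval : ∀ χ ∈ B, ∀ h : H, p ∣ orderOf h → (χ : H → ℂ) h = ε χ) (hcard : Nat.card B = 9)
    (hp : p ∣ Nat.card H) :
    (9 : ℂ) * ((Nat.card H : ℂ)⁻¹ *
      ((Finset.univ.filter fun h : H => p ∣ orderOf h).card : ℂ)) = 1 := by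
  have := Core.finite_irr (G := H)
  have := Fintype.ofFinite (IrrCharacter H)
  set c : ℂ := (Nat.card H : ℂ)⁻¹ *
    ((Finset.univ.filter fun h : H => p ∣ orderOf h).card : ℂ) with hc
  have hc0 : c ≠ 0 := by
    rw [hc]
    apply mul_ne_zero
    · exact inv_ne_zero (by exact_mod_cast Nat.card_pos.ne')
    · obtain ⟨x, hx⟩ := exists_prime_orderOf_dvd_card' (G := H) p hp
      have : (Finset.univ.filter fun h : H => p ∣ orderOf h).Nonempty :=
        ⟨x, Finset.mem_filter.2 ⟨Finset.mem_univ _, by rw [hx]⟩⟩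
      exact_mod_cast this.card_pos.ne'
  have hcard' : Fintype.card B = 9 := by rw [← Nat.card_eq_fintype_card, hcard]
  have hne : Nonempty B := by
    rw [← Fintype.card_pos_iff, hcard']; norm_num
  obtain ⟨χ⟩ := hne
  have h1 := sum_rg_mul_rg hM hB (χ := χ.1) (ψ := χ.1) χ.2
  have hsq : ∀ χ ∈ B, (ε χ : ℂ) * ε χ = 1 := by
    intro χ hχ
    rcases hε χ hχ with h | h <;> rw [h] <;> norm_num
  have h2 : ∀ ζ : B, rg p ((χ : IrrCharacter H) : H → ℂ) ((ζ : IrrCharacter H) : H → ℂ) *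
      rg p ((ζ : IrrCharacter H) : H → ℂ) ((χ : IrrCharacter H) : H → ℂ) =
      (if ζ = χ then (1 : ℂ) - 2 * c else 0) + c ^ 2 := by
    intro ζ
    rw [rg_eq_sub B ε hval χ.2 ζ.2, rg_eq_sub B ε hval ζ.2 χ.2, ← hc]
    have e1 := hsq χ χ.2
    have e2 := hsq ζ ζ.2
    by_cases h : ζ = χ
    · subst h
      simp only [if_true]
      linear_combination (-2 * c + c ^ 2 * ((ε ζ : ℂ) * ε ζ) + c ^ 2) * e1
    · have h' : ¬ (ζ : IrrCharacter H) = χ := fun h' => h (Subtype.ext h')
      have h'' : ¬ (χ : IrrCharacter H) = ζ := fun h'' => h (Subtype.ext h''.symm)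
      rw [if_neg h, if_neg h', if_neg h'']
      linear_combination (c ^ 2 * ((ε ζ : ℂ) * ε ζ)) * e1 + c ^ 2 * e2
  rw [Finset.sum_congr rfl fun ζ _ => h2 ζ, Finset.sum_add_distrib,
    Finset.sum_ite_eq' Finset.univ χ, if_pos (Finset.mem_univ _), Finset.sum_const,
    Finset.card_univ, hcard', rg_eq_sub B ε hval χ.2 χ.2, ← hc, if_pos rfl, hsq χ χ.2,
    nsmul_eq_mul] at h1
  have h3 : c * (9 * c - 1) = 0 := by
    push_cast at h1
    linear_combination h1
  rcases mul_eq_zero.1 h3 with h | h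
  · exact absurd h hc0
  · exact sub_eq_zero.1 h

theorem parity_contra {ι : Type*} (s : Finset ι) (a ε : ι → ℤ) (hε : ∀ i ∈ s, ε i = 1 ∨ ε i = -1)
    (h : 9 * ∑ i ∈ s, a i ^ 2 - (∑ i ∈ s, a i * ε i) ^ 2 = 9) : False := by
  have h1 : (2 : ℤ) ∣ ∑ i ∈ s, a i ^ 2 - ∑ i ∈ s, a i * ε i := by
    rw [← Finset.sum_sub_distrib]
    apply Finset.dvd_sum
    intro i hi
    have h2 : (2 : ℤ) ∣ a i * (a i + 1) := (Int.even_mul_succ_self _).two_dvd
    rcases hε i hi with h' | h' <;> rw [h']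
    · have : a i ^ 2 - a i * 1 = a i * (a i + 1) - 2 * a i := by ring
      rw [this]
      exact dvd_sub h2 (dvd_mul_right _ _)
    · have : a i ^ 2 - a i * -1 = a i * (a i + 1) := by ring
      rw [this]
      exact h2
  set A := ∑ i ∈ s, a i ^ 2
  set t := ∑ i ∈ s, a i * ε i
  have h3 : (3 : ℤ) ∣ t := by
    have h4 : (3 : ℤ) ∣ t ^ 2 := ⟨3 * A - 3, by linarith⟩
    exact Int.prime_three.dvd_of_dvd_pow h4
  obtain ⟨r, hr⟩ := h3
  have h5 : A = 1 + r ^ 2 := by
    rw [hr] at h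
    nlinarith
  rw [h5, hr] at h1
  have h6 : (2 : ℤ) ∣ r * (r + 1) := (Int.even_mul_succ_self _).two_dvd
  obtain ⟨u, hu⟩ := h1
  obtain ⟨v, hv⟩ := h6
  have : (1 : ℤ) = 2 * (u - v + 2 * r) := by linarith
  omega

end singular

section central

variable {G : Type*} [Group G] [Finite G] {p : ℕ} [Fact p.Prime] {M : Ideal AlgInt}
  {U : Subgroup G} [U.Normal]

/-- On the `p`-regular elements an irreducible character is an integral combination of
inflations. -/
theorem exists_int_reg [Fintype (IrrCharacter (G ⧸ U))] (hU : U ≤ center G) (hp : IsPGroup p U)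
    (ψ : IrrCharacter G) :
    ∃ a : IrrCharacter (G ⧸ U) → ℤ, ∀ g : G, ¬ p ∣ orderOf g →
      (ψ : G → ℂ) g = ∑ θ, (a θ : ℂ) * (θ : G ⧸ U → ℂ) (QuotientGroup.mk g) := by
  classical
  have := Fintype.ofFinite G
  have := Core.finite_irr (G := G)
  have := Fintype.ofFinite (IrrCharacter G)
  have := Fintype.ofFinite U
  obtain ⟨n, r, -, hR⟩ := H658.RegPow.exists_regExp p G 0
  have h1 := H658.RegPow.isGeneralizedCharacter_pow hR (Core.isIrr_isCharacter ψ.2)
  obtain ⟨m, hm⟩ := Core.isGeneralizedCharacter_iff.1 h1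
  refine ⟨fun θ => m (infl U θ), fun g hg => ?_⟩
  have h2 : ∀ u : U, (ψ : G → ℂ) ((g * (u : G)) ^ p ^ n) = (ψ : G → ℂ) g := by
    intro u
    have hu : ∃ k : ℕ, orderOf (u : G) = p ^ k := by
      obtain ⟨k, hk⟩ := (IsPGroup.iff_orderOf.1 hp) u
      exact ⟨k, by rw [Subgroup.orderOf_coe]; exact hk⟩
    rw [hR.mul_pow_eq (mem_center_iff.1 (hU u.2) g) hu, hR.pow_of_not_dvd hg]
  have h3 : (Nat.card U : ℂ) * (ψ : G → ℂ) g =
      ∑ u : U, ∑ ξ : IrrCharacter G, (m ξ : ℂ) * (ξ : G → ℂ) (g * (u : G)) := by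
    have : ∀ u : U, ∑ ξ : IrrCharacter G, (m ξ : ℂ) * (ξ : G → ℂ) (g * (u : G)) =
        (ψ : G → ℂ) g := by
      intro u
      rw [← h2 u]
      have h3 := congrFun hm (g * (u : G))
      change (ψ : G → ℂ) ((g * (u : G)) ^ p ^ n) = _ at h3
      rw [h3, Finset.sum_apply]
      refine Finset.sum_congr rfl fun ξ _ => ?_
      rw [Pi.smul_apply, zsmul_eq_mul]
    rw [Finset.sum_congr rfl fun u _ => this u, Finset.sum_const, Finset.card_univ, nsmul_eq_mul,
      Nat.card_eq_fintype_card]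
  rw [Finset.sum_comm] at h3
  have h4 : ∀ ξ : IrrCharacter G, ∑ u : U, (m ξ : ℂ) * (ξ : G → ℂ) (g * (u : G)) =
      (Nat.card U : ℂ) * (if ∃ θ, infl U θ = ξ then (m ξ : ℂ) * (ξ : G → ℂ) g else 0) := by
    intro ξ
    rw [← Finset.mul_sum, sum_coset hU ξ g]
    split_ifs <;> ring
  rw [Finset.sum_congr rfl fun ξ _ => h4 ξ, ← Finset.mul_sum] at h3
  have hU0 : (Nat.card U : ℂ) ≠ 0 := by exact_mod_cast Nat.card_pos.ne'
  rw [mul_left_cancel₀ hU0 h3, ← Finset.sum_filter]
  symm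
  refine Finset.sum_bij (fun θ _ => infl U θ) ?_ ?_ ?_ ?_
  · intro θ _
    exact Finset.mem_filter.2 ⟨Finset.mem_univ _, θ, rfl⟩
  · intro θ _ θ' _ h
    exact infl_injective U h
  · intro ξ hξ
    obtain ⟨θ, hθ⟩ := (Finset.mem_filter.1 hξ).2
    exact ⟨θ, Finset.mem_univ _, hθ⟩
  · intro θ _
    rfl

/-- No member of `B` outside the inflations has norm one on the regular elements. -/
theorem rg_push_ne_one [Fintype G] [Fintype (G ⧸ U)] (hM : IsPModular p M) (hU : U ≤ center G)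
    (hp : IsPGroup p U) (hpH : p ∣ Nat.card (G ⧸ U)) (hk : Nat.card (principalBlock M (G ⧸ U)) = 9)
    (ε : IrrCharacter (G ⧸ U) → ℤ)
    (hε : ∀ χ ∈ principalBlock M (G ⧸ U), ε χ = 1 ∨ ε χ = -1)
    (hval : ∀ χ ∈ principalBlock M (G ⧸ U), ∀ h : G ⧸ U, p ∣ orderOf h →
      (χ : G ⧸ U → ℂ) h = ε χ) {ψ : IrrCharacter G} (hψ : ψ ∈ principalBlock M G) :
    rg p (push p U (ψ : G → ℂ)) (push p U (ψ : G → ℂ)) ≠ 1 := by
  classical
  intro h1
  have := Core.finite_irr (G := G ⧸ U)
  have := Fintype.ofFinite (IrrCharacter (G ⧸ U))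
  have hB : IsPBlock M (principalBlock M (G ⧸ U)) := Blocks.PrincipalSection.isPBlock_principalBlock
  have hBG : IsPBlock M (principalBlock M G) := Blocks.PrincipalSection.isPBlock_principalBlock
  obtain ⟨a, ha⟩ := exists_int_reg hU hp ψ
  set F := push p U (ψ : G → ℂ) with hF
  have hrgF : ∀ F' : G ⧸ U → ℂ, rg p F F' = ∑ θ, (a θ : ℂ) * rg p (θ : G ⧸ U → ℂ) F' := by
    intro F'
    rw [← rg_sum_smul_left p F' Finset.univ (fun θ => (a θ : ℂ))
      (fun θ : IrrCharacter (G ⧸ U) => (θ : G ⧸ U → ℂ)), rg_def, rg_def,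
      H613.Contrib.pair_eq_sum_filter, H613.Contrib.pair_eq_sum_filter]
    congr 1
    refine Finset.sum_congr rfl fun x hx => ?_
    have hx' : ¬ p ∣ orderOf x := (Finset.mem_filter.1 hx).2
    obtain ⟨g, hg, rfl⟩ := Blocks.PRegular.exists_isPRegular_lift G p U hx'
    rw [hF, push_mk hU hp _ hg, ha g hg, Finset.sum_apply]
    rfl
  have hout : ∀ θ : IrrCharacter (G ⧸ U), θ ∉ principalBlock M (G ⧸ U) →
      rg p F (θ : G ⧸ U → ℂ) = 0 := by
    intro θ hθ
    rw [hF, rg_push_infl hU hp]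
    rw [← defl_principalBlock hM hU hp] at hθ
    rw [rg_eq_zero hM hBG hψ hθ, mul_zero]
  have hcomm : ∀ θ : IrrCharacter (G ⧸ U), rg p (θ : G ⧸ U → ℂ) F = rg p F (θ : G ⧸ U → ℂ) := by
    intro θ
    rw [← conj_rg, hrgF, map_sum]
    refine Finset.sum_congr rfl fun θ' _ => ?_
    rw [map_mul, map_intCast, conj_rg, rg_comm p (Core.isIrr_isCharacter θ.2)
      (Core.isIrr_isCharacter θ'.2)]
  have h2 : rg p F F = ∑ θ with θ ∈ principalBlock M (G ⧸ U),
      ∑ θ' with θ' ∈ principalBlock M (G ⧸ U), (a θ : ℂ) * ((a θ' : ℂ) *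
        rg p (θ' : G ⧸ U → ℂ) (θ : G ⧸ U → ℂ)) := by
    rw [hrgF F, ← Finset.sum_filter_add_sum_filter_not Finset.univ
      (fun θ => θ ∈ principalBlock M (G ⧸ U))]
    rw [Finset.sum_eq_zero (s := Finset.univ.filter fun θ => θ ∉ principalBlock M (G ⧸ U))
      (fun θ hθ => by rw [hcomm, hout θ (Finset.mem_filter.1 hθ).2, mul_zero]), add_zero]
    refine Finset.sum_congr rfl fun θ hθ => ?_
    have hθ' := (Finset.mem_filter.1 hθ).2
    rw [hcomm, hrgF, ← Finset.mul_sum, ← Finset.sum_filter_add_sum_filter_not Finset.univ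
      (fun θ => θ ∈ principalBlock M (G ⧸ U))]
    rw [Finset.sum_eq_zero (s := Finset.univ.filter fun θ => θ ∉ principalBlock M (G ⧸ U))
      (fun θ'' hθ'' => by
        rw [rg_eq_zero' hM hB (Finset.mem_filter.1 hθ'').2 hθ', mul_zero]), add_zero]
  set c : ℂ := (Nat.card (G ⧸ U) : ℂ)⁻¹ *
    ((Finset.univ.filter fun h : G ⧸ U => p ∣ orderOf h).card : ℂ) with hc
  have h9 : 9 * c = 1 := nine_mul_eq_one hM hB ε hε hval hk hpH
  set S := Finset.univ.filter fun θ : IrrCharacter (G ⧸ U) => θ ∈ principalBlock M (G ⧸ U) with hS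
  have h3 : rg p F F = ((∑ θ ∈ S, a θ ^ 2 : ℤ) : ℂ) - c * ((∑ θ ∈ S, a θ * ε θ : ℤ) : ℂ) ^ 2 := by
    rw [h2]
    have h4 : ∀ θ ∈ S, ∑ θ' ∈ S, (a θ : ℂ) * ((a θ' : ℂ) *
        rg p (θ' : G ⧸ U → ℂ) (θ : G ⧸ U → ℂ)) =
        (a θ : ℂ) ^ 2 - c * ((a θ * ε θ : ℂ) * ∑ θ' ∈ S, (a θ' * ε θ' : ℂ)) := by
      intro θ hθ
      have e : ∀ θ' ∈ S, (a θ : ℂ) * ((a θ' : ℂ) * rg p (θ' : G ⧸ U → ℂ) (θ : G ⧸ U → ℂ)) =
          (if θ' = θ then (a θ : ℂ) ^ 2 else 0) - c * ((a θ * ε θ : ℂ) * (a θ' * ε θ' : ℂ)) := by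
        intro θ' hθ'
        rw [rg_eq_sub _ ε hval (Finset.mem_filter.1 hθ').2 (Finset.mem_filter.1 hθ).2, ← hc]
        by_cases h : θ' = θ
        · subst h
          rw [if_pos rfl, if_pos rfl]
          ring
        · rw [if_neg h, if_neg h]
          ring
      rw [Finset.sum_congr rfl e, Finset.sum_sub_distrib, Finset.sum_ite_eq' S θ, if_pos hθ,
        ← Finset.mul_sum, ← Finset.mul_sum]
    rw [Finset.sum_congr rfl h4, Finset.sum_sub_distrib, ← Finset.mul_sum, ← Finset.sum_mul]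
    push_cast
    ring
  rw [h1] at h3
  apply parity_contra S a ε (fun θ hθ => hε θ (Finset.mem_filter.1 hθ).2)
  have h5 : ((9 * ∑ θ ∈ S, a θ ^ 2 - (∑ θ ∈ S, a θ * ε θ) ^ 2 : ℤ) : ℂ) = ((9 : ℤ) : ℂ) := by
    rw [Int.cast_sub, Int.cast_mul, Int.cast_pow]
    push_cast at h3 ⊢
    linear_combination (-9 : ℂ) * h3 + (∑ θ ∈ S, (a θ : ℂ) * (ε θ : ℂ)) ^ 2 * h9
  exact_mod_cast h5

end central

section main

variable {G : Type*} [Group G] [Finite G] {P : Sylow 3 G} {z : G} {M : Ideal AlgInt}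

/-- A member of the principal block which is not an inflation vanishes off `⟨z⟩` times the
3-regular elements. -/
theorem vanish (hM : IsPModular 3 M) (h : E27Dat P z) [(zpowers z).Normal] {ψ : IrrCharacter G}
    (hψ : ψ ∈ principalBlock M G) (hni : ∀ θ, infl (zpowers z) θ ≠ ψ) {x y : G}
    (hx : ∃ k : ℕ, orderOf x = 3 ^ k) (hxz : x ∉ zpowers z) (hy : ¬ 3 ∣ orderOf y)
    (hxy : Commute x y) : (ψ : G → ℂ) (x * y) = 0 := by
  classical
  have := Fintype.ofFinite G
  obtain ⟨c, hc⟩ := exists_scalar_center ψ h.hzc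
  have hc1 : c ≠ 1 := by
    intro hc1
    obtain ⟨θ, hθ⟩ := H633.Principal.exists_infl (zpowers z) ψ (by
      intro n hn
      obtain ⟨i, rfl⟩ : ∃ i : ℕ, n = z ^ i := by
        rcases (mem_zpowers_z_iff h).1 hn with h1 | h1 | h1
        · exact ⟨0, by rw [h1, pow_zero]⟩
        · exact ⟨1, by rw [h1, pow_one]⟩
        · exact ⟨2, h1⟩
      induction i with
      | zero => rw [pow_zero]
      | succ i ih =>
        rw [pow_succ, hc, hc1, one_mul]
        exact ih (pow_mem (mem_zpowers z) i))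
    exact hni θ hθ.symm
  have h1 : (ψ : G → ℂ) (x * y) = (ψ : G → ℂ) x := by
    have hyp : H608.SecProj.Hyp 3 x (centralizer ({x} : Set G)) :=
      ⟨hx, rfl, exists_index_centralizer h hx hxz⟩
    exact H608.SecProj.apply_mul_eq hM hyp
      (y := ⟨y, mem_centralizer_singleton_iff.2 hxy.symm⟩)
      (by rw [← Subgroup.orderOf_coe]; exact hy) hψ
  have h2 : (ψ : G → ℂ) x = (ψ : G → ℂ) (x * z) := by
    obtain ⟨g, hg⟩ := isConj_iff.1 (isConj_mul_zpow h hx hxz (mem_zpowers z))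
    rw [← hg]
    exact (Core.isIrr_isClassFunction ψ.2 x g).symm
  rw [hc] at h2
  have h3 : (1 - c) * (ψ : G → ℂ) x = 0 := by linear_combination h2
  rcases mul_eq_zero.1 h3 with h4 | h4
  · exact absurd (sub_eq_zero.1 h4).symm hc1
  · rw [h1, h4]

theorem exists_scalar_norm_one {ψ : IrrCharacter G} {w : G} (hw : w ∈ center G) (hw3 : w ^ 3 = 1) :
    ∃ c : ℂ, (∀ g : G, (ψ : G → ℂ) (g * w) = c * (ψ : G → ℂ) g) ∧ c * conj c = 1 := by
  have := Fintype.ofFinite G
  obtain ⟨c, hc⟩ := exists_scalar_center ψ hw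
  refine ⟨c, hc, ?_⟩
  have h0 : (ψ : G → ℂ) 1 ≠ 0 := Blocks.Basic.irr_one_ne_zero ψ.2
  have h1 : c ^ 3 = 1 := by
    have h2 : (ψ : G → ℂ) (1 * w * w * w) = c * (c * (c * (ψ : G → ℂ) 1)) := by
      rw [hc, hc, hc]
    have h3 : 1 * w * w * w = 1 := by rw [one_mul, ← pow_two, ← pow_succ, hw3]
    rw [h3] at h2
    have h4 : (c ^ 3 - 1) * (ψ : G → ℂ) 1 = 0 := by linear_combination -h2
    rcases mul_eq_zero.1 h4 with h5 | h5
    · exact sub_eq_zero.1 h5
    · exact absurd h5 h0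
  have h2 : ‖c‖ = 1 := by
    have := congrArg norm h1
    rw [norm_pow, norm_one] at this
    exact (pow_eq_one_iff_of_nonneg (norm_nonneg c) (by norm_num)).1 this
  rw [Complex.mul_conj, Complex.normSq_eq_norm_sq, h2]
  norm_num

/-- Such a character has norm `1/3` on the 3-regular elements. -/
theorem three_mul_rg [Fintype G] (hM : IsPModular 3 M) (h : E27Dat P z) [(zpowers z).Normal]
    {ψ : IrrCharacter G} (hψ : ψ ∈ principalBlock M G) (hni : ∀ θ, infl (zpowers z) θ ≠ ψ) :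
    3 * rg 3 (ψ : G → ℂ) (ψ : G → ℂ) = 1 := by
  classical
  have h0 := Core.classInner_irr_self ψ.2
  rw [Core.classInner_def, Blocks.SectionSum.sum_eq_sum_sections 3] at h0
  rw [rg_def, ← h0]
  have hsub : ({1, z, z ^ 2} : Finset G) ⊆
      Finset.univ.filter (fun x : G => ∃ k : ℕ, orderOf x = 3 ^ k) := by
    intro x hx
    have hx' : x ∈ zpowers z := by
      rw [mem_zpowers_z_iff h]; simpa using hx
    obtain ⟨k, hk⟩ := (IsPGroup.iff_orderOf.1 (isPGroup_zpowers_z h)) ⟨x, hx'⟩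
    exact Finset.mem_filter.2 ⟨Finset.mem_univ _, k, by rw [← hk, ← Subgroup.orderOf_coe]⟩
  rw [← Finset.sum_subset hsub]
  · have h1 : ∀ x ∈ ({1, z, z ^ 2} : Finset G),
        ∑ y ∈ Finset.univ.filter (fun y : G => Commute x y ∧ ¬ 3 ∣ orderOf y),
          (ψ : G → ℂ) (x * y) * conj ((ψ : G → ℂ) (x * y)) =
        Cfsg.Agent.Blocks.Blau.pair 3 (ψ : G → ℂ) (ψ : G → ℂ) := by
      intro x hx
      have hx' : x ∈ zpowers z := by
        rw [mem_zpowers_z_iff h]; simpa using hx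
      have hx3 : x ^ 3 = 1 := by
        have := pow_card_eq_one' (x := (⟨x, hx'⟩ : zpowers z))
        rw [card_zpowers_z h] at this
        exact congrArg Subtype.val this
      obtain ⟨c, hc, hcc⟩ := exists_scalar_norm_one (ψ := ψ) (zpowers_le_center h hx') hx3
      rw [H613.Contrib.pair_eq_sum_filter]
      refine Finset.sum_congr ?_ fun y _ => ?_
      · ext y
        simp only [Finset.mem_filter, Finset.mem_univ, true_and, and_iff_right_iff_imp]
        intro _
        exact (mem_center_iff.1 (zpowers_le_center h hx') y).symm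
      · have hxy : x * y = y * x := (mem_center_iff.1 (zpowers_le_center h hx') y).symm
        rw [hxy, hc, map_mul]
        linear_combination ((ψ : G → ℂ) y * conj ((ψ : G → ℂ) y)) * hcc
    have hcardS : ({1, z, z ^ 2} : Finset G).card = 3 := by
      have h1 : (1 : G) ≠ z := (z_ne_one h).symm
      have h2 : (1 : G) ≠ z ^ 2 := by
        intro h2
        have := orderOf_dvd_of_pow_eq_one h2.symm
        rw [h.hz3] at this
        omega
      have h3 : z ≠ z ^ 2 := by
        intro h3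
        rw [pow_two] at h3
        exact z_ne_one h (mul_eq_left.1 h3.symm)
      rw [Finset.card_eq_three]
      exact ⟨1, z, z ^ 2, h1, h2, h3, rfl⟩
    rw [Finset.sum_congr rfl h1, Finset.sum_const, hcardS, nsmul_eq_mul]
    push_cast
    ring
  · intro x hx hxn
    have hx3 := (Finset.mem_filter.1 hx).2
    have hxz : x ∉ zpowers z := by
      intro hx'
      apply hxn
      have := (mem_zpowers_z_iff h).1 hx'
      simpa using this
    refine Finset.sum_eq_zero fun y hy => ?_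
    obtain ⟨h1, h2⟩ := (Finset.mem_filter.1 hy).2
    rw [vanish hM h hψ hni hx3 hxz h2 h1, zero_mul]

/-- (E4) -/
theorem no_nine (hM : IsPModular 3 M) (h : E27Dat P z) [(zpowers z).Normal]
    (hk : Nat.card (principalBlock M (G ⧸ zpowers z)) = 9)
    (eps : IrrCharacter (G ⧸ zpowers z) → ℤ)
    (heps : ∀ χ ∈ principalBlock M (G ⧸ zpowers z), eps χ = 1 ∨ eps χ = -1)
    (hval : ∀ χ ∈ principalBlock M (G ⧸ zpowers z), ∀ x : G ⧸ zpowers z, 3 ∣ orderOf x →
      (χ : G ⧸ zpowers z → ℂ) x = eps χ) : False := by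
  classical
  have := Fintype.ofFinite G
  have := Fintype.ofFinite (G ⧸ zpowers z)
  have hU := zpowers_le_center h
  have hp := isPGroup_zpowers_z h
  have hfin := Core.finite_irr (G := G)
  have hfin' := Core.finite_irr (G := G ⧸ zpowers z)
  -- a member of the principal block which is not an inflation
  obtain ⟨ψ, hψ, hni⟩ : ∃ ψ ∈ principalBlock M G, ∀ θ, infl (zpowers z) θ ≠ ψ := by
    by_contra hcon
    push Not at hcon
    have h1 : Nat.card (principalBlock M G) ≤ Nat.card (principalBlock M (G ⧸ zpowers z)) := by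
      rw [← defl_principalBlock hM hU hp]
      choose f hf using hcon
      refine Nat.card_le_card_of_injective
        (fun ψ : principalBlock M G => (⟨f ψ.1 ψ.2, by rw [mem_defl, hf ψ.1 ψ.2]; exact ψ.2⟩ :
          defl (zpowers z) (principalBlock M G))) ?_
      intro ψ ψ' he
      have h2 := congrArg Subtype.val he
      simp only at h2
      apply Subtype.ext
      rw [← hf ψ.1 ψ.2, ← hf ψ'.1 ψ'.2, h2]
    rw [card_eq hM h] at h1
    have h2 := H590.RankOne.blockRank_pos hM G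
    omega
  have h1 := three_mul_rg hM h hψ hni
  have hpH : 3 ∣ Nat.card (G ⧸ zpowers z) := by
    have h2 : 27 ∣ Nat.card G := by
      rw [← h.hcard]; exact card_subgroup_dvd_card (P : Subgroup G)
    have h3 := Subgroup.card_eq_card_quotient_mul_card_subgroup (zpowers z)
    rw [card_zpowers_z h] at h3
    omega
  apply rg_push_ne_one hM hU hp hpH hk eps heps hval hψ
  rw [rg_push_push hU hp, card_zpowers_z h]
  exact_mod_cast h1

/-- The height in the principal block. -/
theorem blockHeight_principal {p : ℕ} [Fact p.Prime] (hM : IsPModular p M) (χ : IrrCharacter G) :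
    blockHeight p (principalBlock M G) (χ : G → ℂ) = 0 ↔ ¬ p ∣ charDegree (χ : G → ℂ) := by
  have hpr : p.Prime := Fact.out
  have hMp := Blocks.Local.isPrime_of_isPModular hM
  have h0 : sInf ((fun ψ : IrrCharacter G => (charDegree (ψ : G → ℂ)).factorization p) ''
      principalBlock M G) = 0 := by
    apply Nat.le_zero.1
    have h1 : charDegree (fun _ : G => (1 : ℂ)) = 1 := Blocks.Basic.charDegree_of_eq (by simp)
    have h2 : (charDegree (fun _ : G => (1 : ℂ))).factorization p = 0 := by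
      rw [h1]; simp
    have h3 : (charDegree (fun _ : G => (1 : ℂ))).factorization p ∈
        ((fun ψ : IrrCharacter G => (charDegree (ψ : G → ℂ)).factorization p) ''
          principalBlock M G) :=
      ⟨⟨fun _ => 1, Blocks.Basic.isIrrCharacter_one⟩,
        Blocks.PrincipalSection.one_mem_principalBlock, rfl⟩
    rw [h2] at h3
    exact Nat.sInf_le h3
  unfold blockHeight
  rw [h0, Nat.sub_zero, Nat.factorization_eq_zero_iff]
  constructor
  · rintro (h1 | h1 | h1)
    · exact absurd hpr h1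
    · exact h1
    · exact absurd h1 (charDegree_ne_zero χ)
  · intro h1
    exact Or.inr (Or.inl h1)

/-- Members of the principal block which are not inflations have degree divisible by 3. -/
theorem three_dvd_of_not_infl (hM : IsPModular 3 M) (h : E27Dat P z) [(zpowers z).Normal]
    (hexp : ∀ x ∈ (P : Subgroup G), x ^ 3 = 1) {ψ : IrrCharacter G}
    (hψ : ψ ∈ principalBlock M G) (hni : ∀ θ, infl (zpowers z) θ ≠ ψ) :
    3 ∣ charDegree (ψ : G → ℂ) := by
  classical
  obtain ⟨u, huP, huz⟩ : ∃ u ∈ (P : Subgroup G), u ∉ zpowers z := by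
    by_contra hcon
    push Not at hcon
    have h1 := card_le_of_le (show (P : Subgroup G) ≤ zpowers z from hcon)
    rw [card_zpowers_z h] at h1
    have h2 := h.hcard
    change Nat.card (P : Subgroup G) = 27 at h2
    omega
  have hu1 : u ≠ 1 := fun h1 => huz (h1 ▸ one_mem _)
  have hu3 : orderOf u = 3 := orderOf_eq_prime (hexp u huP) hu1
  obtain ⟨k, hk⟩ := S0189.card_dvd_degree_of_vanishing (zpowers u) (ψ : G → ℂ)
    (Core.isIrr_isCharacter ψ.2) (by
      intro g hg hg1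
      have hg3 : g ^ 3 = 1 := by
        have := pow_card_eq_one' (x := (⟨g, hg⟩ : zpowers u))
        rw [Nat.card_zpowers, hu3] at this
        exact congrArg Subtype.val this
      have hgz : g ∉ zpowers z := by
        intro hgz
        apply huz
        obtain ⟨i, rfl⟩ := mem_zpowers_iff.1 hg
        have h3 : (0 : ℤ) ≤ i % 3 := Int.emod_nonneg _ (by norm_num)
        have h4 : i % 3 < 3 := Int.emod_lt_of_pos _ (by norm_num)
        have h5 : u ^ i = u ^ (i % 3) := by
          have : (i % 3 : ℤ) = i % (orderOf u : ℤ) := by rw [hu3]; rfl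
          rw [this, zpow_mod_orderOf]
        rw [h5] at hgz hg1
        have h6 : i % 3 = 0 ∨ i % 3 = 1 ∨ i % 3 = 2 := by omega
        rcases h6 with h6 | h6 | h6 <;> rw [h6] at hgz hg1
        · exact absurd (zpow_zero u) hg1
        · rwa [zpow_one] at hgz
        · have h7 : u = (u ^ (2 : ℤ)) ^ 2 := by
            rw [← zpow_natCast, ← zpow_mul]
            show u = u ^ (4 : ℤ)
            have h8 : u ^ (4 : ℤ) = u ^ 3 * u := by
              rw [show (4 : ℤ) = ((4 : ℕ) : ℤ) from rfl, zpow_natCast, pow_succ]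
            rw [h8, hexp u huP, one_mul]
          rw [h7]
          exact pow_mem hgz 2
      have h1 := vanish hM h hψ hni (x := g) (y := 1)
        ⟨1, by rw [pow_one]; exact orderOf_eq_prime hg3 hg1⟩ hgz (by
          rw [orderOf_one]; norm_num) (Commute.one_right g)
      rwa [mul_one] at h1)
  rw [Nat.card_zpowers, hu3, H613.RegGram.apply_one_eq_charDegree] at hk
  exact ⟨k, by exact_mod_cast hk⟩

/-- (E3) -/
theorem card_height_zero (hM : IsPModular 3 M) (h : E27Dat P z) [(zpowers z).Normal]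
    (hexp : ∀ x ∈ (P : Subgroup G), x ^ 3 = 1) :
    Nat.card {χ : IrrCharacter G // χ ∈ principalBlock M G ∧
      blockHeight 3 (principalBlock M G) (χ : G → ℂ) = 0} =
    Nat.card {χ : IrrCharacter (G ⧸ zpowers z) // χ ∈ principalBlock M (G ⧸ zpowers z) ∧
      ¬ 3 ∣ charDegree (χ : G ⧸ zpowers z → ℂ)} := by
  classical
  have hU := zpowers_le_center h
  have hp := isPGroup_zpowers_z h
  have hmem : ∀ θ : IrrCharacter (G ⧸ zpowers z),
      infl (zpowers z) θ ∈ principalBlock M G ↔ θ ∈ principalBlock M (G ⧸ zpowers z) := by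
    intro θ
    rw [← defl_principalBlock hM hU hp, mem_defl]
  symm
  refine Nat.card_congr (Equiv.ofBijective (fun θ => ⟨infl (zpowers z) θ.1,
    (hmem θ.1).2 θ.2.1, (blockHeight_principal hM _).2 θ.2.2⟩) ⟨?_, ?_⟩)
  · intro θ θ' he
    exact Subtype.ext (infl_injective _ (congrArg Subtype.val he))
  · rintro ⟨χ, hχ, hχ0⟩
    rw [blockHeight_principal hM] at hχ0
    by_contra hcon
    apply hχ0
    refine three_dvd_of_not_infl hM h hexp hχ fun θ hθ => hcon ?_
    subst hθ
    exact ⟨⟨θ, (hmem θ).1 hχ, hχ0⟩, rfl⟩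

end main

end Cfsg.Agent.H650.E27
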