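import Mathlib
import Cfsg.Agent.H650.E27NoNine
import Cfsg.Agent.H650.E27Extra
import Cfsg.Agent.H657.E27Main

/-!
# `H657.E27Main.Central` from `H657.E27Main.Data`
-/

set_option autoImplicit false

namespace Cfsg.Agent.H650.E27

open Cfsg Subgroup

universe u

/-- The facts about the central extension. -/
theorem central {K : Type u} [Group K] [Finite K] (M : Ideal AlgInt) (hM : IsPModular 3 M)
    (R : Sylow 3 K) (w : K) [(zpowers w).Normal] (h : H657.E27Main.Data R w) :
    H657.E27Main.Central M K w := by
  have hd : E27Dat R w := E27Dat.of_fusion R h.center h.order h.card h.conj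
  refine ⟨blockRank_quot hM (zpowers_le_center hd) (isPGroup_zpowers_z hd), card_eq hM hd,
    fun h3 => ?_, fun hk eps heps hval => no_nine hM hd hk eps heps hval⟩
  rw [card_height_zero hM hd h.exp]
  refine Nat.card_congr (Equiv.subtypeEquivRight fun χ => ?_)
  exact ⟨fun hχ => hχ.1, fun hχ => ⟨hχ, h3 χ hχ⟩⟩

end Cfsg.Agent.H650.E27
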