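import Cfsg.Agent.H279.GoodPSL
import Cfsg.Agent.H687.Cusp
import Cfsg.Agent.H650.CuspPGL
import Cfsg.Agent.H650.CrossPSL

/-!
# S4834, the row `PSL₄(q)` (helper650, task 373 of helper687)

`P` is the image of the stabiliser `Pt` of the flag `⟨e₀⟩ ≤ ⟨e₀, e₁, e₂⟩`.
-/

set_option autoImplicit false

namespace Cfsg.Agent.H650.GoodPSL4

open Cfsg Matrix MatrixGroups Cfsg.Agent.H687
open Matrix.GeneralLinearGroup (upperRightHom)
open Cfsg.Agent.H279.GoodPSL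
open Cfsg.Agent.Nodes.RGDTypeA (Mono mem_T mono_nn nn nn_eq tv_inj tv_val diag_mem_T)
open Cfsg.Agent.TitsThree.KSideA

universe v

variable {F : Type v} [Field F]

local notation "SL4" => SpecialLinearGroup (Fin (3 + 1)) F
local notation "PSL4" => ProjectiveSpecialLinearGroup (Fin (3 + 1)) F

/-- The shape of the matrices of the parabolic subgroup. -/
def Sh (g : Matrix (Fin (3 + 1)) (Fin (3 + 1)) F) : Prop :=
  g 1 0 = 0 ∧ g 2 0 = 0 ∧ g 3 0 = 0 ∧ g 3 1 = 0 ∧ g 3 2 = 0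

theorem mul_ap (g h : SL4) (i j : Fin (3 + 1)) :
    (g * h).1 i j = g.1 i 0 * h.1 0 j + g.1 i 1 * h.1 1 j + g.1 i 2 * h.1 2 j + g.1 i 3 * h.1 3 j := by
  show (g.1 * h.1) i j = _
  rw [Matrix.mul_apply]
  exact Fin.sum_univ_four (fun k : Fin 4 => g.1 i k * h.1 k j)

theorem Sh.mul {g h : SL4} (hg : Sh g.1) (hh : Sh h.1) : Sh (g * h).1 := by
  obtain ⟨a1, a2, a3, a4, a5⟩ := hg
  obtain ⟨b1, b2, b3, b4, b5⟩ := hh
  refine ⟨?_, ?_, ?_, ?_, ?_⟩ <;> rw [mul_ap] <;> simp [a1, a2, a3, a4, a5, b1, b2, b3, b4, b5]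

theorem one_ap (i j : Fin (3 + 1)) : (1 : SL4).1 i j = if i = j then 1 else 0 := Matrix.one_apply

theorem Sh.inv {g : SL4} (hg : Sh g.1) : Sh (g⁻¹).1 := by
  obtain ⟨a1, a2, a3, a4, a5⟩ := hg
  have e : ∀ i j, (g⁻¹ * g).1 i j = if i = j then 1 else 0 := fun i j => by rw [inv_mul_cancel, one_ap]
  have f : ∀ i j, (g * g⁻¹).1 i j = if i = j then 1 else 0 := fun i j => by rw [mul_inv_cancel, one_ap]
  have e00 := e 0 0
  rw [mul_ap, a1, a2, a3] at e00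
  simp at e00
  have h0 : g.1 0 0 ≠ 0 := fun h => by
    have := e 0 0
    rw [mul_ap, a1, a2, a3, h] at this
    simp at this
  have h3 : g.1 3 3 ≠ 0 := fun h => by
    have := f 3 3
    rw [mul_ap, a3, a4, a5, h] at this
    simp at this
  have c1 := e 1 0
  have c2 := e 2 0
  have c3 := e 3 0
  have c4 := f 3 1
  have c5 := f 3 2
  rw [mul_ap, a1, a2, a3, if_neg (by decide)] at c1 c2 c3
  rw [mul_ap, a3, a4, a5, if_neg (by decide)] at c4 c5
  simp only [mul_zero, add_zero, zero_mul, zero_add, mul_eq_zero, h0, h3, or_false, false_or] at c1 c2 c3 c4 c5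
  exact ⟨c1, c2, c3, c4, c5⟩

/-- The parabolic subgroup of `SL₄`. -/
def Pt (F : Type v) [Field F] : Subgroup (SpecialLinearGroup (Fin (3 + 1)) F) where
  carrier := {g | Sh g.1}
  mul_mem' := Sh.mul
  one_mem' := by
    refine ⟨?_, ?_, ?_, ?_, ?_⟩ <;> rw [one_ap] <;> exact if_neg (by decide)
  inv_mem' := Sh.inv

theorem mem_Pt {g : SL4} : g ∈ Pt F ↔ Sh g.1 := Iff.rfl

theorem center_le : Subgroup.center SL4 ≤ Pt F := by
  intro g hg
  rw [Matrix.SpecialLinearGroup.mem_center_iff] at hg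
  obtain ⟨r, -, hr⟩ := hg
  rw [mem_Pt, ← hr]
  refine ⟨?_, ?_, ?_, ?_, ?_⟩ <;> rw [scalar_apply] <;> exact diagonal_apply_ne _ (by decide)

/-- The middle block. -/
noncomputable def midM : Pt F →* Matrix (Fin 2) (Fin 2) F where
  toFun g := !![g.1.1 1 1, g.1.1 1 2; g.1.1 2 1, g.1.1 2 2]
  map_one' := by
    ext i j
    fin_cases i <;> fin_cases j <;> simp [one_ap]
  map_mul' := by
    rintro ⟨g, hg⟩ ⟨h, hh⟩
    obtain ⟨a1, a2, a3, a4, a5⟩ := hg
    obtain ⟨b1, b2, b3, b4, b5⟩ := hh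
    ext i j
    fin_cases i <;> fin_cases j <;>
      simp [mul_ap, a1, a2, b4, b5, Matrix.mul_apply, Fin.sum_univ_two]

/-- The entry `0 0`. -/
noncomputable def aM : Pt F →* F where
  toFun g := g.1.1 0 0
  map_one' := by simp [one_ap]
  map_mul' := by
    rintro ⟨g, hg⟩ ⟨h, hh⟩
    obtain ⟨b1, b2, b3, b4, b5⟩ := hh
    simp [mul_ap, b1, b2, b3]

/-- The entry `3 3`. -/
noncomputable def bM : Pt F →* F where
  toFun g := g.1.1 3 3
  map_one' := by simp [one_ap]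
  map_mul' := by
    rintro ⟨g, hg⟩ ⟨h, hh⟩
    obtain ⟨a1, a2, a3, a4, a5⟩ := hg
    simp [mul_ap, a3, a4, a5]

/-- The middle block. -/
noncomputable def midU : Pt F →* GL (Fin 2) F := MonoidHom.toHomUnits midM

noncomputable def aU : Pt F →* Fˣ := MonoidHom.toHomUnits aM

noncomputable def bU : Pt F →* Fˣ := MonoidHom.toHomUnits bM

theorem coe_midU (g : Pt F) : ((midU g : GL (Fin 2) F) : Matrix (Fin 2) (Fin 2) F) =
    !![g.1.1 1 1, g.1.1 1 2; g.1.1 2 1, g.1.1 2 2] := rfl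

theorem coe_aU (g : Pt F) : ((aU g : Fˣ) : F) = g.1.1 0 0 := rfl

theorem coe_bU (g : Pt F) : ((bU g : Fˣ) : F) = g.1.1 3 3 := rfl

theorem det_rel (g : Pt F) : (aU g : Fˣ) * Matrix.GeneralLinearGroup.det (midU g) * bU g = 1 := by
  obtain ⟨a1, a2, a3, a4, a5⟩ := g.2
  apply Units.ext
  rw [Units.val_mul, Units.val_mul, coe_aU, coe_bU, Matrix.GeneralLinearGroup.val_det_apply, coe_midU,
    Matrix.det_fin_two_of, Units.val_one]
  have h : (g.1.1 : Matrix (Fin 4) (Fin 4) F).det = 1 := g.1.2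
  rw [Matrix.det_succ_column_zero, Fin.sum_univ_four] at h
  have e1 : (g.1.1 : Matrix (Fin 4) (Fin 4) F) 1 0 = 0 := a1
  have e2 : (g.1.1 : Matrix (Fin 4) (Fin 4) F) 2 0 = 0 := a2
  have e3 : (g.1.1 : Matrix (Fin 4) (Fin 4) F) 3 0 = 0 := a3
  have e4 : (g.1.1 : Matrix (Fin 4) (Fin 4) F) 3 1 = 0 := a4
  have e5 : (g.1.1 : Matrix (Fin 4) (Fin 4) F) 3 2 = 0 := a5
  rw [e1, e2, e3, Matrix.det_fin_three] at h
  have f1 : (Fin.succAbove 0 2 : Fin 4) = 3 := rfl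
  have f2 : (Fin.succAbove 0 1 : Fin 4) = 2 := rfl
  have f3 : (Fin.succAbove 0 0 : Fin 4) = 1 := rfl
  have g1 : (Fin.succ 2 : Fin 4) = 3 := rfl
  have g2 : (Fin.succ 1 : Fin 4) = 2 := rfl
  have g3 : (Fin.succ 0 : Fin 4) = 1 := rfl
  simp only [Matrix.submatrix_apply, f1, f2, f3, g1, g2, g3, e4, e5] at h
  simp only [mul_zero, zero_mul, add_zero, sub_zero] at h
  refine Eq.trans ?_ h
  simp
  ring

/-! ### the parabolic subgroup of `PSL₄` -/

/-- The parabolic subgroup of `PSL₄`. -/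
def P (F : Type v) [Field F] : Subgroup (ProjectiveSpecialLinearGroup (Fin (3 + 1)) F) := (Pt F).map mk

theorem mem_P {g : SL4} : mk g ∈ P F ↔ g ∈ Pt F := by
  constructor
  · rintro ⟨h, hh, e⟩
    have h1 : mk (h⁻¹ * g) = 1 := by rw [map_mul, map_inv, e, inv_mul_cancel]
    have h2 : h⁻¹ * g ∈ Subgroup.center SL4 := (QuotientGroup.eq_one_iff _).1 h1
    have h3 := (Pt F).mul_mem hh (center_le h2)
    rwa [mul_inv_cancel_left] at h3
  · intro h
    exact ⟨g, h, rfl⟩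

noncomputable def sub : Pt F →* P F := mk.subgroupMap (Pt F)

theorem sub_surj : Function.Surjective (sub : Pt F →* P F) := MonoidHom.subgroupMap_surjective _ _

theorem sub_coe (g : Pt F) : ((sub g : P F) : PSL4) = mk g.1 := rfl

noncomputable def rhoT : Pt F →* PGL(2, F) := ProjGenLinGroup.mk.comp midU

noncomputable def detT : Pt F →* Fˣ := aU / bU

theorem ker_sub {g : Pt F} (h : g ∈ (sub : Pt F →* P F).ker) : ∃ r : F, ∀ i j, g.1.1 i j = if i = j then r else 0 := by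
  have h1 : mk g.1 = 1 := by rw [← sub_coe, MonoidHom.mem_ker.1 h]; rfl
  have h2 : g.1 ∈ Subgroup.center SL4 := (QuotientGroup.eq_one_iff _).1 h1
  rw [Matrix.SpecialLinearGroup.mem_center_iff] at h2
  obtain ⟨r, -, hr⟩ := h2
  refine ⟨r, fun i j => ?_⟩
  rw [← hr, scalar_apply, diagonal_apply]

theorem ker_rho : (sub : Pt F →* P F).ker ≤ rhoT.ker := by
  intro g hg
  obtain ⟨r, hr⟩ := ker_sub hg
  rw [MonoidHom.mem_ker]
  show ProjGenLinGroup.mk (midU g) = 1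
  have h : midU g = GeneralLinearGroup.scalar (Fin 2) (aU g) := by
    apply Units.ext
    rw [coe_midU, GeneralLinearGroup.coe_scalar, coe_aU]
    ext i j
    fin_cases i <;> fin_cases j <;> simp [hr]
  rw [h, ProjGenLinGroup.mk_scalar]

theorem ker_det : (sub : Pt F →* P F).ker ≤ detT.ker := by
  intro g hg
  obtain ⟨r, hr⟩ := ker_sub hg
  rw [MonoidHom.mem_ker]
  show aU g / bU g = 1
  rw [div_eq_one]
  apply Units.ext
  rw [coe_aU, coe_bU, hr, hr]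
  rfl

noncomputable def rho : P F →* PGL(2, F) := sub.liftOfSurjective sub_surj ⟨rhoT, ker_rho⟩

noncomputable def det' : P F →* Fˣ := sub.liftOfSurjective sub_surj ⟨detT, ker_det⟩

theorem rho_sub (g : Pt F) : rho (sub g) = ProjGenLinGroup.mk (midU g) :=
  MonoidHom.liftOfRightInverse_comp_apply _ _ _ _ _

theorem det_sub (g : Pt F) : det' (sub g) = aU g * (bU g)⁻¹ :=
  (MonoidHom.liftOfRightInverse_comp_apply _ _ _ _ _).trans (div_eq_mul_inv _ _)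

theorem rho_mk {g : SL4} (h : mk g ∈ P F) : rho ⟨mk g, h⟩ = ProjGenLinGroup.mk (midU ⟨g, mem_P.1 h⟩) :=
  rho_sub ⟨g, mem_P.1 h⟩

theorem det_mk {g : SL4} (h : mk g ∈ P F) : det' ⟨mk g, h⟩ = aU ⟨g, mem_P.1 h⟩ * (bU ⟨g, mem_P.1 h⟩)⁻¹ :=
  det_sub ⟨g, mem_P.1 h⟩

theorem det_scalar (u : Fˣ) : Matrix.GeneralLinearGroup.det (GeneralLinearGroup.scalar (Fin 2) u) = u ^ 2 := by
  apply Units.ext
  rw [Matrix.GeneralLinearGroup.val_det_apply, GeneralLinearGroup.coe_scalar]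
  simp

theorem compat (t : P F) : ∃ g : GL (Fin 2) F, rho t = ProjGenLinGroup.mk g ∧ det' t = g.det := by
  obtain ⟨g, rfl⟩ := sub_surj t
  refine ⟨midU g * GeneralLinearGroup.scalar (Fin 2) (aU g), ?_, ?_⟩
  · rw [rho_sub, map_mul, ProjGenLinGroup.mk_scalar, mul_one]
  · rw [det_sub, map_mul, det_scalar]
    have h := det_rel g
    rw [eq_comm, ← mul_inv_eq_one]
    have e : (midU g).det * aU g ^ 2 * (aU g * (bU g)⁻¹)⁻¹ = aU g * (midU g).det * bU g := by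
      rw [mul_inv, inv_inv, pow_two, ← mul_assoc, mul_comm (midU g).det]
      have e1 : aU g * aU g * (midU g).det * (aU g)⁻¹ * bU g = aU g * (midU g).det * (aU g * (aU g)⁻¹) * bU g := by
        rw [mul_assoc (aU g) (aU g), mul_comm (aU g) (aU g * (midU g).det)]
        simp only [mul_assoc]
      rw [e1, mul_inv_cancel, mul_one]
    rw [e, h]

/-! ### root elements -/

theorem tv_mem {i j : Fin (3 + 1)} (hij : i ≠ j) (h : i = 0 ∨ j = 3 ∨ (i = 1 ∧ j = 2) ∨ (i = 2 ∧ j = 1)) (c : F) :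
    tv i j c ∈ Pt F := by
  rw [mem_Pt, tv_val hij]
  rcases h with rfl | rfl | ⟨rfl, rfl⟩ | ⟨rfl, rfl⟩ <;> refine ⟨?_, ?_, ?_, ?_, ?_⟩ <;>
    rw [Matrix.add_apply, Matrix.one_apply_ne (by decide), zero_add] <;> simp

theorem X_mem {i j : Fin (3 + 1)} (hij : i ≠ j) (h : i = 0 ∨ j = 3 ∨ (i = 1 ∧ j = 2) ∨ (i = 2 ∧ j = 1)) (c : F) :
    X i j c ∈ P F := mem_P.2 (tv_mem hij h c)

/-- Root elements of the unipotent radical act trivially. -/
theorem rho_triv {i j : Fin (3 + 1)} (hij : i ≠ j) (h : i = 0 ∨ j = 3) (c : F) (hX : X i j c ∈ P F) :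
    rho ⟨X i j c, hX⟩ = 1 := by
  have e : midU ⟨tv i j c, mem_P.1 hX⟩ = 1 := by
    apply Units.ext
    rw [coe_midU]
    show !![(tv i j c).1 1 1, (tv i j c).1 1 2; (tv i j c).1 2 1, (tv i j c).1 2 2] = (1 : Matrix (Fin 2) (Fin 2) F)
    rw [tv_val hij]
    ext a b
    rcases h with rfl | rfl <;> fin_cases a <;> fin_cases b <;> simp [Matrix.add_apply]
  exact (rho_mk hX).trans (by rw [e, map_one])

theorem coe_upper (c : F) : ((upperRightHom c : GL (Fin 2) F) : Matrix (Fin 2) (Fin 2) F) = !![1, c; 0, 1] := rfl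

/-- The two root groups of the Levi complement. -/
theorem exists_k {i j : Fin (3 + 1)} (h : (i = 1 ∧ j = 2) ∨ (i = 2 ∧ j = 1)) : ∃ k : PGL(2, F), ∀ (c : F)
    (hX : X i j c ∈ P F), rho ⟨X i j c, hX⟩ = k * ProjGenLinGroup.mk (upperRightHom c) * k⁻¹ := by
  rcases h with ⟨rfl, rfl⟩ | ⟨rfl, rfl⟩
  · refine ⟨1, fun c hX => ?_⟩
    rw [inv_one, mul_one, one_mul]
    refine (rho_mk hX).trans ?_
    congr 1
    apply Units.ext
    rw [coe_midU, coe_upper]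
    show !![(tv 1 2 c).1 1 1, (tv 1 2 c).1 1 2; (tv 1 2 c).1 2 1, (tv 1 2 c).1 2 2] = _
    rw [tv_val (by decide)]
    ext a b
    fin_cases a <;> fin_cases b <;> simp [Matrix.add_apply]
  · have hw : (!![0, 1; 1, 0] : Matrix (Fin 2) (Fin 2) F).det ≠ 0 := by simp
    refine ⟨ProjGenLinGroup.mk (GeneralLinearGroup.mkOfDetNeZero _ hw), fun c hX => ?_⟩
    rw [← map_inv, ← map_mul, ← map_mul]
    refine (rho_mk hX).trans ?_
    congr 1
    rw [eq_mul_inv_iff_mul_eq]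
    apply Units.ext
    rw [Units.val_mul, Units.val_mul, coe_midU, coe_upper]
    show !![(tv 2 1 c).1 1 1, (tv 2 1 c).1 1 2; (tv 2 1 c).1 2 1, (tv 2 1 c).1 2 2] * !![0, 1; 1, 0] =
      !![0, 1; 1, 0] * !![1, c; 0, 1]
    rw [tv_val (by decide)]
    ext a b
    fin_cases a <;> fin_cases b <;> simp [Matrix.add_apply, Matrix.mul_apply, Fin.sum_univ_two]

/-- Monomial elements fixing `0` and `3`. -/
theorem mono_mem {σ : Equiv.Perm (Fin (3 + 1))} {g : SL4} (hg : Mono σ g) (h0 : σ 0 = 0) (h3 : σ 3 = 3) :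
    g ∈ Pt F := by
  have a : ∀ i : Fin (3 + 1), i ≠ 0 → g.1 i 0 = 0 := by
    intro i hi
    by_contra h
    exact hi ((hg i 0 h).trans h0)
  have b : ∀ j : Fin (3 + 1), j ≠ 3 → g.1 3 j = 0 := by
    intro j hj
    by_contra h
    have h1 := hg 3 j h
    rw [← h3] at h1
    exact hj (σ.injective h1).symm
  exact ⟨a 1 (by decide), a 2 (by decide), a 3 (by decide), b 1 (by decide), b 2 (by decide)⟩

/-! ### the element `x₀` -/

/-- the matrix of `x₀` -/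
def w0 (F : Type v) [Field F] : SpecialLinearGroup (Fin (3 + 1)) F :=
  ⟨!![0, 0, 0, 1; 0, 1, 0, 0; 0, 0, 1, 0; -1, 0, 0, 0], by
    rw [Matrix.det_succ_row_zero, Fin.sum_univ_four]
    simp [Matrix.det_fin_three, Matrix.submatrix, Fin.succAbove]
    norm_num⟩

/-- its inverse -/
def w1 (F : Type v) [Field F] : SpecialLinearGroup (Fin (3 + 1)) F :=
  ⟨!![0, 0, 0, -1; 0, 1, 0, 0; 0, 0, 1, 0; 1, 0, 0, 0], by
    rw [Matrix.det_succ_row_zero, Fin.sum_univ_four]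
    simp [Matrix.det_fin_three, Matrix.submatrix, Fin.succAbove]
    norm_num⟩

theorem w0_inv : (w0 F)⁻¹ = w1 F := by
  rw [inv_eq_iff_mul_eq_one]
  apply Subtype.ext
  show !![0, 0, 0, 1; 0, 1, 0, 0; 0, 0, 1, 0; -1, 0, 0, 0] * !![0, 0, 0, -1; 0, 1, 0, 0; 0, 0, 1, 0; 1, 0, 0, 0] =
    (1 : Matrix (Fin 4) (Fin 4) F)
  ext i j
  fin_cases i <;> fin_cases j <;> simp [Matrix.mul_apply, Fin.sum_univ_four]

theorem w0_mono : Mono (Equiv.swap 0 3) (w0 F) := by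
  intro a b h
  have h' : (!![0, 0, 0, 1; 0, 1, 0, 0; 0, 0, 1, 0; -1, 0, 0, 0] : Matrix (Fin 4) (Fin 4) F) a b ≠ 0 := h
  fin_cases a <;> fin_cases b <;> first | decide | (exact absurd (by simp) h')

/-- the element `x₀` -/
def x0 (F : Type v) [Field F] : ProjectiveSpecialLinearGroup (Fin (3 + 1)) F := mk (w0 F)

/-- Conjugation by `x₀`. -/
theorem conj_w0 (g : SL4) : ((w0 F)⁻¹ * g * w0 F).1 = !![g.1 3 3, -g.1 3 1, -g.1 3 2, -g.1 3 0; -g.1 1 3, g.1 1 1, g.1 1 2, g.1 1 0;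
    -g.1 2 3, g.1 2 1, g.1 2 2, g.1 2 0; -g.1 0 3, g.1 0 1, g.1 0 2, g.1 0 0] := by
  rw [w0_inv]
  ext i j
  rw [mul_ap, mul_ap, mul_ap, mul_ap, mul_ap]
  simp only [w0, w1]
  fin_cases i <;> fin_cases j <;> simp

theorem opp (t : P F) (h : (x0 F)⁻¹ * (t : PSL4) * x0 F ∈ P F) :
    rho ⟨(x0 F)⁻¹ * (t : PSL4) * x0 F, h⟩ = 1 * rho t * 1⁻¹ ∧ det' ⟨(x0 F)⁻¹ * (t : PSL4) * x0 F, h⟩ = (det' t)⁻¹ := by
  obtain ⟨g, rfl⟩ := sub_surj t
  have e : (x0 F)⁻¹ * (sub g : PSL4) * x0 F = mk ((w0 F)⁻¹ * g.1 * w0 F) := by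
    rw [sub_coe, map_mul, map_mul, map_inv]; rfl
  have h' : mk ((w0 F)⁻¹ * g.1 * w0 F) ∈ P F := by rwa [← e]
  have e2 : (⟨(x0 F)⁻¹ * (sub g : PSL4) * x0 F, h⟩ : P F) = ⟨mk ((w0 F)⁻¹ * g.1 * w0 F), h'⟩ := Subtype.ext e
  rw [e2, rho_mk, det_mk, rho_sub, det_sub, one_mul, inv_one, mul_one, mul_inv, inv_inv, mul_comm (aU g)⁻¹]
  refine ⟨?_, ?_⟩
  · congr 1
    apply Units.ext
    rw [coe_midU, coe_midU]
    simp only [conj_w0]
    ext i j
    fin_cases i <;> fin_cases j <;> simp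
  · congr 1
    · apply Units.ext
      rw [coe_aU, coe_bU]
      simp only [conj_w0]
      simp
    · congr 1
      apply Units.ext
      rw [coe_aU, coe_bU]
      simp only [conj_w0]
      simp

theorem det_bd (a b c d e : F) (h : (a * d - b * c) * e = 1) :
    (!![1, 0, 0, 0; 0, a, b, 0; 0, c, d, 0; 0, 0, 0, e] : Matrix (Fin 4) (Fin 4) F).det = 1 := by
  rw [Matrix.det_succ_row_zero, Fin.sum_univ_four]
  simp [Matrix.det_fin_three, Matrix.submatrix, Fin.succAbove]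
  linear_combination h

/-- block diagonal matrices -/
noncomputable def bd (A : GL (Fin 2) F) : SpecialLinearGroup (Fin (3 + 1)) F :=
  ⟨!![1, 0, 0, 0; 0, A.1 0 0, A.1 0 1, 0; 0, A.1 1 0, A.1 1 1, 0; 0, 0, 0, (((A.det)⁻¹ : Fˣ) : F)], by
    have h : ((A.det : Fˣ) : F) * (((A.det)⁻¹ : Fˣ) : F) = 1 := by rw [← Units.val_mul, mul_inv_cancel]; rfl
    have h2 : ((A.det : Fˣ) : F) = A.1 0 0 * A.1 1 1 - A.1 0 1 * A.1 1 0 := by
      rw [Matrix.GeneralLinearGroup.val_det_apply, Matrix.det_fin_two]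
    rw [h2] at h
    exact det_bd _ _ _ _ _ h⟩

theorem opp_surj (A : GL (Fin 2) F) : ∃ t : P F, (x0 F)⁻¹ * (t : PSL4) * x0 F ∈ P F ∧ rho t = ProjGenLinGroup.mk A ∧
    det' t = A.det := by
  have hb : bd A ∈ Pt F := by
    refine ⟨?_, ?_, ?_, ?_, ?_⟩ <;> simp [bd]
  refine ⟨sub ⟨bd A, hb⟩, ?_, ?_, ?_⟩
  · have e : (x0 F)⁻¹ * (sub ⟨bd A, hb⟩ : PSL4) * x0 F = mk ((w0 F)⁻¹ * bd A * w0 F) := by
      rw [sub_coe, map_mul, map_mul, map_inv]; rfl
    rw [e, mem_P, mem_Pt, conj_w0]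
    refine ⟨?_, ?_, ?_, ?_, ?_⟩ <;> simp [bd]
  · rw [rho_sub]
    congr 1
    apply Units.ext
    rw [coe_midU]
    ext i j
    fin_cases i <;> fin_cases j <;> simp [bd]
  · rw [det_sub]
    have h1 : aU ⟨bd A, hb⟩ = 1 := by
      apply Units.ext
      rw [coe_aU]
      simp [bd]
    have h2 : bU ⟨bd A, hb⟩ = (A.det)⁻¹ := by
      apply Units.ext
      rw [coe_bU]
      simp [bd]
    rw [h1, h2, inv_inv, one_mul]

/-! ### double cosets -/

theorem upper_le {g : SL4} (hg : g ∈ upperSL 3 F) : g ∈ Pt F := by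
  have h := mem_upperSL.1 hg
  exact ⟨h 1 0 (by decide), h 2 0 (by decide), h 3 0 (by decide), h 3 1 (by decide), h 3 2 (by decide)⟩

/-- the second alternative of `CuspDat.tr` -/
def Alt (y : PSL4) : Prop :=
  ∃ (X : F → P F) (k : PGL(2, F)), (∀ a b, X (a + b) = X a * X b) ∧
      (∀ c, rho (X c) = k * ProjGenLinGroup.mk (upperRightHom c) * k⁻¹) ∧
      ∀ c, ∃ h : y⁻¹ * (X c : PSL4) * y ∈ P F, rho ⟨y⁻¹ * (X c : PSL4) * y, h⟩ = 1

theorem Alt.mul {y : PSL4} (h : Alt y) {a b : PSL4} (ha : a ∈ P F) (hb : b ∈ P F) : Alt (a * y * b) := by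
  obtain ⟨X, k, h1, h2, h3⟩ := h
  refine ⟨fun c => ⟨a, ha⟩ * X c * ⟨a, ha⟩⁻¹, rho ⟨a, ha⟩ * k, ?_, ?_, ?_⟩
  · intro c d
    simp only [h1]
    group
  · intro c
    rw [map_mul, map_mul, map_inv, h2]
    group
  · intro c
    obtain ⟨h, h4⟩ := h3 c
    have e : (a * y * b)⁻¹ * (((⟨a, ha⟩ * X c * ⟨a, ha⟩⁻¹ : P F)) : PSL4) * (a * y * b) =
        (((⟨b, hb⟩ : P F)⁻¹ * ⟨y⁻¹ * (X c : PSL4) * y, h⟩ * ⟨b, hb⟩ : P F) : PSL4) := by
      show (a * y * b)⁻¹ * (a * (X c : PSL4) * a⁻¹) * (a * y * b) = b⁻¹ * (y⁻¹ * (X c : PSL4) * y) * b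
      group
    refine ⟨by rw [e]; exact SetLike.coe_mem _, ?_⟩
    have e2 : (⟨(a * y * b)⁻¹ * (((⟨a, ha⟩ * X c * ⟨a, ha⟩⁻¹ : P F)) : PSL4) * (a * y * b), by
        rw [e]; exact SetLike.coe_mem _⟩ : P F) = (⟨b, hb⟩ : P F)⁻¹ * ⟨y⁻¹ * (X c : PSL4) * y, h⟩ * ⟨b, hb⟩ :=
      Subtype.ext e
    rw [e2, map_mul, map_mul, h4, mul_one, map_inv, inv_mul_cancel]

theorem alt_of {σ : Equiv.Perm (Fin (3 + 1))} {g : SL4} (hg : Mono σ g) {i j : Fin (3 + 1)}
    (hij : (i = 1 ∧ j = 2) ∨ (i = 2 ∧ j = 1)) (h : σ 0 = i ∨ σ 3 = j) : Alt (mk g) := by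
  have hne : i ≠ j := by
    rcases hij with ⟨rfl, rfl⟩ | ⟨rfl, rfl⟩ <;> decide
  have hm : i = 0 ∨ j = 3 ∨ (i = 1 ∧ j = 2) ∨ (i = 2 ∧ j = 1) := Or.inr (Or.inr hij)
  obtain ⟨k, hk⟩ := exists_k (F := F) hij
  have hne' : σ⁻¹ i ≠ σ⁻¹ j := fun e => hne (σ⁻¹.injective e)
  have h' : σ⁻¹ i = 0 ∨ σ⁻¹ j = 3 := by
    rcases h with h | h
    · left; rw [← h]; exact σ.symm_apply_apply 0
    · right; rw [← h]; exact σ.symm_apply_apply 3
  refine ⟨fun c => ⟨X i j c, X_mem hne hm c⟩, k, fun a b => Subtype.ext (X_add i j a b), fun c => hk c _, fun c => ?_⟩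
  have e : (mk g)⁻¹ * X i j c * mk g = X (σ⁻¹ i) (σ⁻¹ j) ((g⁻¹).1 (σ⁻¹ i) i * ((g⁻¹).1 (σ⁻¹ j) j)⁻¹ * c) := by
    have := conj_X hg.inv hne c
    rwa [map_inv, inv_inv] at this
  have hX : X (σ⁻¹ i) (σ⁻¹ j) ((g⁻¹).1 (σ⁻¹ i) i * ((g⁻¹).1 (σ⁻¹ j) j)⁻¹ * c) ∈ P F := by
    refine X_mem hne' ?_ _
    rcases h' with h' | h'
    · exact Or.inl h'
    · exact Or.inr (Or.inl h')
  refine ⟨by rw [← e] at hX; exact hX, ?_⟩
  rw [← rho_triv hne' h' _ hX]
  congr 1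
  exact Subtype.ext e

theorem tr (y : PSL4) (hy : y ∉ P F) : (∃ a ∈ P F, ∃ b ∈ P F, y = a * x0 F * b) ∨ Alt y := by
  obtain ⟨g, rfl⟩ := mk_surjective y
  obtain ⟨a, ha, b, hb, σ, hσ⟩ := exists_mono g
  have ha' : mk a ∈ P F := mem_P.2 (upper_le ha)
  have hb' : mk b ∈ P F := mem_P.2 (upper_le hb)
  have hg : mk g = (mk a)⁻¹ * mk (a * g * b) * (mk b)⁻¹ := by
    rw [map_mul, map_mul]
    group
  have h1 : ∀ i j : Fin (3 + 1), ((i = 1 ∧ j = 2) ∨ (i = 2 ∧ j = 1)) → (σ 0 = i ∨ σ 3 = j) → Alt (mk g) := by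
    intro i j hij h
    rw [hg]
    exact (alt_of hσ hij h).mul ((P F).inv_mem ha') ((P F).inv_mem hb')
  by_cases c0 : σ 0 = 1
  · exact Or.inr (h1 1 2 (by decide) (Or.inl c0))
  by_cases c1 : σ 0 = 2
  · exact Or.inr (h1 2 1 (by decide) (Or.inl c1))
  by_cases c2 : σ 3 = 1
  · exact Or.inr (h1 2 1 (by decide) (Or.inr c2))
  by_cases c3 : σ 3 = 2
  · exact Or.inr (h1 1 2 (by decide) (Or.inr c3))
  have h03 : σ 0 ≠ σ 3 := fun e => absurd (σ.injective e) (by decide)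
  have key : ∀ a b : Fin (3 + 1), a ≠ 1 → a ≠ 2 → b ≠ 1 → b ≠ 2 → a ≠ b → (a = 0 ∧ b = 3) ∨ (a = 3 ∧ b = 0) := by
    decide
  rcases key _ _ c0 c1 c2 c3 h03 with ⟨d0, d3⟩ | ⟨d0, d3⟩
  · exfalso
    apply hy
    rw [hg]
    exact (P F).mul_mem ((P F).mul_mem ((P F).inv_mem ha') (mem_P.2 (mono_mem hσ d0 d3))) ((P F).inv_mem hb')
  · left
    have h2 : Mono ((Equiv.swap 0 3)⁻¹ * σ) ((w0 F)⁻¹ * (a * g * b)) := w0_mono.inv.mul hσ
    have h3 : (w0 F)⁻¹ * (a * g * b) ∈ Pt F := by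
      apply mono_mem h2
      · rw [Equiv.Perm.mul_apply, d0]; decide
      · rw [Equiv.Perm.mul_apply, d3]; decide
    refine ⟨(mk a)⁻¹, (P F).inv_mem ha', mk ((w0 F)⁻¹ * (a * g * b)) * (mk b)⁻¹,
      (P F).mul_mem (mem_P.2 h3) ((P F).inv_mem hb'), ?_⟩
    have h4 : mk ((w0 F)⁻¹ * (a * g * b)) = (x0 F)⁻¹ * mk (a * g * b) := by
      rw [map_mul, map_inv]; rfl
    rw [hg, h4]
    group

/-! ### automorphisms -/

open Cfsg.Agent.ClassicalGeometry.AutPSL.Root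
open Cfsg.Agent.ClassicalGeometry.AutPSL.Auto
open Cfsg.Agent.ClassicalGeometry.AutPSL.Main
open Cfsg.Agent.H183.OutPSL

theorem mk_eq_pr (g : SL4) : mk g = pr g := rfl

/-- The matrix `diag(d, 1, 1, 1)`. -/
noncomputable def dh (d : Fˣ) : GL (Fin (3 + 1)) F :=
  Matrix.GeneralLinearGroup.mkOfDetNeZero (Matrix.diagonal (Function.update 1 0 (d : F))) (by
    rw [Matrix.det_diagonal, Finset.prod_update_of_mem (Finset.mem_univ _)]
    simp)

theorem det_dh (d : Fˣ) : Matrix.GeneralLinearGroup.det (dh d) = d := by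
  apply Units.ext
  show (Matrix.diagonal (Function.update 1 0 (d : F)) : Matrix (Fin (3 + 1)) (Fin (3 + 1)) F).det = d
  rw [Matrix.det_diagonal, Finset.prod_update_of_mem (Finset.mem_univ _)]
  simp

/-- Automorphisms of odd order are semilinear. -/
theorem exists_semi [Finite F] {p : ℕ} [hp : Fact p.Prime] [CharP F p] (h2 : p ≠ 2) (φ : MulAut PSL4)
    (h : ∃ k : ℕ, orderOf φ = p ^ k) :
    ∃ (A : GL (Fin (3 + 1)) F) (σ : F ≃+* F), φ = lift (cj A * fld σ) ∧ ∃ m : ℕ, σ ^ p ^ m = 1 := by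
  have : Fintype F := Fintype.ofFinite F
  obtain ⟨k, hk⟩ := h
  -- powers
  have hpow : ∀ (A : GL (Fin (3 + 1)) F) (σ : F ≃+* F) (n : ℕ), ∃ B : GL (Fin (3 + 1)) F,
      (lift (cj A * fld σ) : MulAut PSL4) ^ n = lift (cj B * fld (σ ^ n)) := by
    intro A σ n
    induction n with
    | zero => exact ⟨1, by simp⟩
    | succ n ih =>
      obtain ⟨B, hB⟩ := ih
      refine ⟨B * fldGL (σ ^ n) A, ?_⟩
      rw [pow_succ, hB, ← map_mul]
      congr 1
      rw [map_mul, mul_assoc, ← mul_assoc (fld _), fld_mul_cj, pow_succ σ, map_mul fld]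
      group
  have hmain : ∃ (A : GL (Fin (3 + 1)) F) (σ : F ≃+* F), φ = lift (cj A * fld σ) := by
    rcases surj_three (F := F) p (show 3 ≤ 3 + 1 by norm_num) φ with ⟨A, σ, h⟩ | ⟨A, σ, h⟩
    · exact ⟨A, σ, h⟩
    · have hsq : ∃ (B : GL (Fin (3 + 1)) F) (τ : F ≃+* F), φ ^ 2 = lift (cj B * fld τ) := by
        refine ⟨A * fldGL σ (itrGL A), σ * σ, ?_⟩
        rw [h, pow_two, ← map_mul]
        congr 1
        have e : cj A * fld σ * itr * (cj A * fld σ * itr) =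
            cj A * (fld σ * ((itr * cj A) * (fld σ * itr))) := by
          simp only [mul_assoc]
        rw [e, itr_mul_cj, fld_mul_itr]
        have e2 : cj (itrGL A) * itr * (itr * fld σ) = cj (itrGL A) * ((itr * itr) * fld σ) := by
          simp only [mul_assoc]
        rw [e2, itr_mul_itr, one_mul, ← mul_assoc (fld σ), fld_mul_cj, map_mul, map_mul fld]
        simp only [mul_assoc]
      obtain ⟨B, τ, hB⟩ := hsq
      have hodd : Odd (p ^ k) := (hp.1.odd_of_ne_two h2).pow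
      obtain ⟨r, hr⟩ := hodd
      have hφ : φ = (φ ^ 2) ^ (r + 1) := by
        rw [← pow_mul, show 2 * (r + 1) = (2 * r + 1) + 1 by ring, ← hr, pow_succ, ← hk, pow_orderOf_eq_one, one_mul]
      obtain ⟨B', hB'⟩ := hpow B τ (r + 1)
      exact ⟨B', τ ^ (r + 1), by rw [hφ, hB, hB']⟩
  obtain ⟨A, σ, hA⟩ := hmain
  refine ⟨A, σ, hA, k, ?_⟩
  obtain ⟨B, hB⟩ := hpow A σ (p ^ k)
  rw [← hA, ← hk, pow_orderOf_eq_one, hk] at hB
  have h3 := (injective_aux (C := B) (σ := σ ^ p ^ k) (τ := 1) (by rw [← hB, map_one, map_one])).2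
  exact h3

/-- The action on the parabolic subgroup. -/
theorem inv_aux [Finite F] {p : ℕ} [hp : Fact p.Prime] [CharP F p] (h2 : p ≠ 2) (φ : MulAut PSL4)
    (h : ∃ k : ℕ, orderOf φ = p ^ k) :
    ∃ (s : PSL4) (θ : F ≃+* F) (k : PGL(2, F)), (∃ m : ℕ, θ ^ p ^ m = 1) ∧
    ∀ t : P F, ∃ h : s * φ t * s⁻¹ ∈ P F, det' ⟨s * φ t * s⁻¹, h⟩ = Units.map (θ : F →* F) (det' t) ∧
      ∀ g : GL (Fin 2) F, rho t = ProjGenLinGroup.mk g → rho ⟨s * φ t * s⁻¹, h⟩ =
        k * ProjGenLinGroup.mk (GeneralLinearGroup.map (θ : F →+* F) g) * k⁻¹ := by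
  obtain ⟨A, σ, rfl, hm⟩ := exists_semi h2 φ h
  obtain ⟨B, hB⟩ := Cfsg.Agent.H650.CrossPSL.exists_conj A (dh A.det) (det_dh _).symm
  refine ⟨(mk B)⁻¹, σ, 1, hm, fun t => ?_⟩
  obtain ⟨g, rfl⟩ := sub_surj t
  -- the matrix of the image
  obtain ⟨g', hg'⟩ : ∃ g' : SL4, g' = cj (dh A.det) (fld σ g.1) := ⟨_, rfl⟩
  have e : (mk B)⁻¹ * (lift (cj A * fld σ) : MulAut PSL4) (sub g : P F) * ((mk B)⁻¹)⁻¹ = mk g' := by
    rw [sub_coe, mk_eq_pr g.1, lift_pr, MulAut.mul_apply, hB, ← hg', mk_eq_pr, mk_eq_pr, map_mul, map_mul, map_inv]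
    group
  obtain ⟨d, hd⟩ : ∃ d : Fin (3 + 1) → F, d = Function.update (1 : Fin (3 + 1) → F) 0 ((A.det : Fˣ) : F) := ⟨_, rfl⟩
  have hd0 : ∀ i, d i ≠ 0 := by
    intro i
    rw [hd]
    by_cases hi : i = 0
    · subst hi; rw [Function.update_self]; exact Units.ne_zero _
    · rw [Function.update_of_ne hi]; exact one_ne_zero
  have hent : ∀ i j, g'.1 i j = d i * σ (g.1.1 i j) * (d j)⁻¹ := by
    have h1 : (g' : Matrix (Fin (3 + 1)) (Fin (3 + 1)) F) * Matrix.diagonal d = Matrix.diagonal d * (fld σ g.1 : SL4).1 := by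
      have h2 : ((dh A.det : GL (Fin (3 + 1)) F) : Matrix (Fin (3 + 1)) (Fin (3 + 1)) F) = Matrix.diagonal d := by
        rw [hd]; rfl
      rw [hg', coe_cj, h2, mul_assoc, mul_assoc, ← h2, ← Units.val_mul, inv_mul_cancel, Units.val_one, mul_one]
    intro i j
    have h2 := congrFun (congrFun h1 i) j
    rw [Matrix.mul_diagonal, Matrix.diagonal_mul] at h2
    rw [eq_mul_inv_iff_mul_eq₀ (hd0 j)]
    exact h2
  have d1 : d 1 = 1 := by rw [hd, Function.update_of_ne (by decide)]; rfl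
  have d2 : d 2 = 1 := by rw [hd, Function.update_of_ne (by decide)]; rfl
  have hPt : g' ∈ Pt F := by
    obtain ⟨a1, a2, a3, a4, a5⟩ := g.2
    refine ⟨?_, ?_, ?_, ?_, ?_⟩ <;> rw [hent] <;> simp [a1, a2, a3, a4, a5]
  have hP : mk g' ∈ P F := mem_P.2 hPt
  have e2 : ∀ h, (⟨(mk B)⁻¹ * (lift (cj A * fld σ) : MulAut PSL4) (sub g : P F) * ((mk B)⁻¹)⁻¹, h⟩ : P F) =
    ⟨mk g', hP⟩ := fun h => Subtype.ext e
  have hmid : midU ⟨g', hPt⟩ = GeneralLinearGroup.map (σ : F →+* F) (midU g) := by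
    apply Units.ext
    rw [coe_midU]
    show _ = ((midU g : GL (Fin 2) F) : Matrix (Fin 2) (Fin 2) F).map σ
    rw [coe_midU]
    ext i j
    fin_cases i <;> fin_cases j <;> simp [hent, d1, d2]
  refine ⟨by rw [e]; exact hP, ?_, ?_⟩
  · rw [e2, det_mk, det_sub, map_mul, map_inv]
    congr 1
    · apply Units.ext
      show g'.1 0 0 = σ (g.1.1 0 0)
      rw [hent, mul_comm (d 0), mul_assoc, mul_inv_cancel₀ (hd0 0), mul_one]
    · congr 1
      apply Units.ext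
      show g'.1 3 3 = σ (g.1.1 3 3)
      rw [hent, mul_comm (d 3), mul_assoc, mul_inv_cancel₀ (hd0 3), mul_one]
  · intro g2 hg2
    rw [e2, rho_mk, hmid, one_mul, inv_one, mul_one]
    rw [rho_sub, ProjGenLinGroup.mk_eq_mk_iff] at hg2
    obtain ⟨u, rfl⟩ := hg2
    rw [map_mul (GeneralLinearGroup.map (σ : F →+* F)), map_mul ProjGenLinGroup.mk]
    have h3 : GeneralLinearGroup.map (σ : F →+* F) (GeneralLinearGroup.scalar (Fin 2) u) =
        GeneralLinearGroup.scalar (Fin 2) (Units.map (σ : F →* F) u) := by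
      apply Units.ext
      show ((GeneralLinearGroup.scalar (Fin 2) u : GL (Fin 2) F) : Matrix (Fin 2) (Fin 2) F).map σ = _
      rw [GeneralLinearGroup.coe_scalar, GeneralLinearGroup.coe_scalar]
      ext i j
      fin_cases i <;> fin_cases j <;> simp
    rw [h3, ProjGenLinGroup.mk_scalar, mul_one]

/-! ### the first character -/

theorem ex_all {m : ℕ} (hm : 2 ≤ m) {i j : Fin (m + 1)} (hij : i ≠ j) (h1 : ¬ (i = 0 ∧ j = Fin.last m)) :
    ∃ e f : ℤ, Ex F i j e f ∧ (e - f = 1 ∨ e - f = 2 ∨ e - f = 3) := by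
  have hl : (0 : Fin (m + 1)) ≠ Fin.last m := last_ne hm
  by_cases h2 : i = Fin.last m ∧ j = 0
  · obtain ⟨rfl, rfl⟩ := h2
    exact ⟨1, -1, ex_opp hm, by norm_num⟩
  by_cases hi : i = 0
  · subst hi
    have hj : j ≠ Fin.last m := fun h => h1 ⟨rfl, h⟩
    refine ⟨2, 1, ex_of hl 2 1 (fun d => ?_) (fun d => ?_), by norm_num⟩ <;>
      simp [hl.symm, hij.symm, hj, ← pow_two]
  · by_cases hi' : i = Fin.last m
    · subst hi'
      have hj : j ≠ 0 := fun h => h2 ⟨rfl, h⟩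
      refine ⟨2, -1, ex_of hl 2 (-1) (fun d => ?_) (fun d => ?_), by norm_num⟩ <;>
        simp [hl.symm, hij.symm, hj, ← pow_two]
    · by_cases hj : j = 0
      · subst hj
        refine ⟨2, -1, ex_of hl 2 (-1) (fun d => ?_) (fun d => ?_), by norm_num⟩ <;>
          simp [hl.symm, hi, hi', ← pow_two]
      · by_cases hj' : j = Fin.last m
        · subst hj'
          refine ⟨2, 1, ex_of hl 2 1 (fun d => ?_) (fun d => ?_), by norm_num⟩ <;>
            simp [hl.symm, hi, hi', ← pow_two]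
        · refine ⟨2, 0, ex_of hl 2 0 (fun d => ?_) (fun d => ?_), by norm_num⟩ <;>
            simp [hl.symm, hi, hi', hj, hj', ← pow_two]

theorem nrm_of {g : SL4} (hg : g ∈ Pt F) : Nrm zz (mk g) := by
  intro t
  have hl : (0 : Fin (3 + 1)) ≠ Fin.last 3 := last_ne (by norm_num)
  obtain ⟨a1, a2, a3, a4, a5⟩ := hg
  have h0 : ∀ i : Fin (3 + 1), i ≠ 0 → g.1 i 0 = 0 := by
    intro i hi
    fin_cases i
    · exact absurd rfl hi
    · exact a1
    · exact a2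
    · exact a3
  have h3 : ∀ j : Fin (3 + 1), j ≠ Fin.last 3 → g.1 (Fin.last 3) j = 0 := by
    intro j hj
    fin_cases j
    · exact a3
    · exact a4
    · exact a5
    · exact absurd rfl hj
  have hd : g.1 (Fin.last 3) (Fin.last 3) ≠ 0 := by
    intro h
    have h1 : g.1.det = 0 := by
      apply Matrix.det_eq_zero_of_row_eq_zero (Fin.last 3)
      intro j
      by_cases hj : j = Fin.last 3
      · rw [hj, h]
      · exact h3 j hj
    rw [g.2] at h1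
    exact one_ne_zero h1
  refine ⟨g.1 0 0 * t * (g.1 (Fin.last 3) (Fin.last 3))⁻¹, ?_⟩
  rw [mul_inv_eq_iff_eq_mul]
  change mk g * mk (tv _ _ _) = mk (tv _ _ _) * mk g
  rw [← map_mul, ← map_mul]
  congr 1
  apply Subtype.ext
  change g.1 * (tv 0 (Fin.last 3) t).1 = (tv 0 (Fin.last 3) _).1 * g.1
  rw [tv_val hl, tv_val hl, mul_add, add_mul, mul_one, one_mul]
  congr 1
  ext i j
  by_cases hj : j = Fin.last 3
  · subst hj
    rw [Matrix.mul_single_apply_same]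
    by_cases hi : i = 0
    · subst hi
      rw [Matrix.single_mul_apply_same]
      field_simp
    · rw [Matrix.single_mul_apply_of_ne _ _ _ _ _ hi, h0 i hi, zero_mul]
  · rw [Matrix.mul_single_apply_of_ne _ _ _ _ _ hj]
    by_cases hi : i = 0
    · subst hi
      rw [Matrix.single_mul_apply_same, h3 j hj, mul_zero]
    · rw [Matrix.single_mul_apply_of_ne _ _ _ _ _ hi]

theorem P_le [Finite F] (z_inj : Function.Injective (zz : F → PSL4)) : P F ≤ NS zz := by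
  rintro _ ⟨g, hg, rfl⟩
  exact (nrm_of hg).mem_NS z_inj

open Cfsg.Agent.ClassicalGeometry.AutPSL.SylowU in
theorem sylow_le [Finite F] {p : ℕ} [Fact p.Prime] [CharP F p] : ∃ U : Sylow p PSL4, (U : Subgroup PSL4) ≤ P F := by
  have : Fintype F := Fintype.ofFinite F
  obtain ⟨S, hS⟩ := exists_sylow (F := F) 4 p
  refine ⟨S, fun u hu => ?_⟩
  rw [hS] at hu
  obtain ⟨g, hg, rfl⟩ := hu
  apply mem_P.2
  apply upper_le
  rw [mem_upperSL]
  intro i j hij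
  rw [mem_upper.1 hg i j hij.le, if_neg (ne_of_gt hij)]

/-- **The data for `PSL₄(q)`.** -/
theorem cuspDat [Finite F] {p : ℕ} [Fact p.Prime] [CharP F p] (h2 : p ≠ 2) :
    CuspDat p F (P F) rho det' (x0 F) where
  idx := by
    obtain ⟨U, hU⟩ := sylow_le (F := F) (p := p)
    intro h
    exact U.not_dvd_index (h.trans (Subgroup.index_dvd_of_le hU))
  ne_top := by
    intro h
    have h1 : x0 F ∈ P F := by rw [h]; trivial
    have h3 := (mem_P.1 h1).2.2.1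
    simp [w0] at h3
  compat := compat
  tr := tr
  opp := ⟨1, opp⟩
  opp_surj := opp_surj
  inv := inv_aux h2

open Cfsg.Agent.ClassicalGeometry.AutPSL.SylowU in
/-- The first character. -/
theorem exists_alpha [Finite F] {p : ℕ} [Fact p.Prime] [CharP F p] (hp : 3 < p) :
    ∃ β : PSL4 → ℂ, IsIrrCharacter PSL4 β ∧ β 1 = ((NS (zz : F → PSL4)).index : ℂ) ∧
      ∃ Ψ : MulAut PSL4 → ℂ, IsIrrCharacter (MulAut PSL4) Ψ ∧ ∀ s, Ψ (MulAut.conj s) = β s := by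
  classical
  have : Fintype F := Fintype.ofFinite F
  have : Fintype PSL4 := Fintype.ofFinite _
  have hl : (0 : Fin (3 + 1)) ≠ Fin.last 3 := last_ne (by norm_num)
  have hlt : (0 : Fin (3 + 1)) < Fin.last 3 := Fin.pos_iff_ne_zero.2 hl.symm
  refine delta_char (z := zz) (fun a b => X_add _ _ a b) (fun a b h => X_injective hl h) hp ?_ (NN 3 F)
    (hN (by norm_num)) ?_
  · intro φ
    obtain ⟨h, hh⟩ := exists_conj_transvection p hlt (fun i => Fin.zero_le i) (fun i => Fin.le_last i) φ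
    refine ⟨(mk h)⁻¹, fun a => ?_⟩
    obtain ⟨s, hs⟩ := hh a
    refine ⟨s, ?_⟩
    have e1 : φ (zz a) = mk h * zz s * (mk h)⁻¹ := by
      change φ (mk (tv _ _ _)) = mk h * mk (tv _ _ _) * (mk h)⁻¹
      rw [tv_of_ne hl, tv_of_ne hl, ← map_inv, ← map_mul, ← map_mul]
      exact hs
    rw [e1]
    group
  · rintro n ⟨i, j, hij, c, hc, hn⟩
    by_cases h1 : i = 0 ∧ j = Fin.last 3
    · obtain ⟨rfl, rfl⟩ := h1
      exact Or.inl fun t => ⟨_, hn t⟩
    · obtain ⟨e, f, hef, h⟩ := ex_all (F := F) (m := 3) (by norm_num) hij h1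
      refine Or.inr ⟨e, f, hef.wit (by norm_num) hij hn, fun hd => ?_⟩
      have h5 : (5 : ℤ) ≤ p := by
        have : 5 ≤ p := by
          by_contra hcon
          have h4 : p = 4 := by omega
          have hpp : p.Prime := Fact.out
          rw [h4] at hpp
          exact absurd hpp (by norm_num)
        exact_mod_cast this
      have h6 := Int.le_of_dvd (by rcases h with h | h | h <;> rw [h] <;> norm_num) hd
      rcases h with h | h | h <;> omega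

/-- **`PSL₄(q)`, `q` a power of `p > 3`.** -/
theorem good_psl4 {p : ℕ} [Fact p.Prime] (hp : 3 < p) {F : Type v} [Field F] [Finite F] [CharP F p] :
    Good p (ProjectiveSpecialLinearGroup (Fin 4) F) := by
  have : Fintype F := Fintype.ofFinite F
  have hl : (0 : Fin (3 + 1)) ≠ Fin.last 3 := last_ne (by norm_num)
  have z_inj : Function.Injective (zz : F → ProjectiveSpecialLinearGroup (Fin (3 + 1)) F) :=
    fun a b h => X_injective hl h
  obtain ⟨π, h1, h2, h3, h4, h5⟩ := CuspPGL.exists_cusp hp F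
  obtain ⟨α, hα, ha, hext⟩ := exists_alpha (F := F) hp
  have hC := cuspDat (F := F) (p := p) (by omega)
  have hPN := P_le (F := F) z_inj
  have hne : (NS (zz : F → ProjectiveSpecialLinearGroup (Fin (3 + 1)) F)).index ≠ 1 := by
    rw [Ne, Subgroup.index_eq_one]
    intro h
    have h6 : X (Fin.last 3) 0 (1 : F) ∈ NS (zz : F → ProjectiveSpecialLinearGroup (Fin (3 + 1)) F) := by
      rw [h]; trivial
    have h7 : Nrm zz (X (Fin.last 3) 0 (1 : F)) := (conj_mem_StA_iff z_inj).1 h6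
    exact one_ne_zero (borel_of_nrm (by norm_num) h7)
  have hPi : (P F).index ≠ 0 := Subgroup.index_ne_zero_of_finite
  refine cusp_good hp hC ⟨h1, h2, h3, h4, h5⟩ hα ha hne ?_ ?_ hext
  · intro hd
    exact hC.idx (hd.trans (Subgroup.index_dvd_of_le hPN))
  · exact Nat.le_of_dvd (Nat.pos_of_ne_zero hPi) (Subgroup.index_dvd_of_le hPN)

end Cfsg.Agent.H650.GoodPSL4
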