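import Cfsg.Agent.H877.PolORow
import Cfsg.Agent.H650.CuspPGL
import Cfsg.Agent.LieClassical.KleinMinus
import Cfsg.Agent.ClassicalGeometry.PSUAutMain
import Cfsg.Agent.ClassicalGeometry.PSUAutCount
import Cfsg.Agent.S0280
import Cfsg.Agent.S0288

/-!
# S4834, the row `PSU₄(q)` (helper650): `PSU₄(q) ≃ PΩ₆⁻(q)` and the frame of helper877
-/

set_option autoImplicit false

namespace Cfsg.Agent.H650.GoodPSU4

open Cfsg Matrix MatrixGroups QuadraticMap
open Cfsg.Agent.LieClassical.OrthCore Cfsg.Agent.LieClassical.OrthTrans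
  Cfsg.Agent.LieClassical.OrthForms Cfsg.Agent.ClassicalGeometry.OrthSemi Cfsg.Agent.ClassicalGeometry.OrthSemiForms Cfsg.Agent.ClassicalGeometry.OrthSemiCount
open Cfsg.Agent.LieClassical.HermBasic (add_pow_q zero_pow_q neg_pow_q card_fixed)

universe u

/-- The subfield with `q` elements. -/
def fixF {K : Type u} [Field K] [Fintype K] {q : ℕ} (hK : Fintype.card K = q ^ 2) : Subfield K where
  carrier := {x | x ^ q = x}
  mul_mem' := by
    intro a b ha hb
    show (a * b) ^ q = a * b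
    rw [mul_pow, show a ^ q = a from ha, show b ^ q = b from hb]
  one_mem' := one_pow q
  add_mem' := by
    intro a b ha hb
    show (a + b) ^ q = a + b
    rw [add_pow_q hK, show a ^ q = a from ha, show b ^ q = b from hb]
  zero_mem' := zero_pow_q hK
  neg_mem' := by
    intro a ha
    show (-a) ^ q = -a
    rw [neg_pow_q hK, show a ^ q = a from ha]
  inv_mem' := by
    intro a ha
    show (a⁻¹) ^ q = a⁻¹
    rw [inv_pow, show a ^ q = a from ha]

variable {F : Type u} [Field F] [Fintype F]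

/-- The automorphisms of `PΩ₆⁻(q)` are induced by semisimilarities. -/
theorem index_eq_one {K : Type u} [Field K] [Fintype K] {q p f : ℕ} [hp : Fact p.Prime] (hf : 1 ≤ f)
    (hq : q = p ^ f) (hF : Fintype.card F = q) (hK : Fintype.card K = q ^ 2) (a b : F)
    (hab : ∀ z₁ z₂ : F, z₁ ^ 2 + a * z₁ * z₂ + b * z₂ ^ 2 = 0 → z₁ = 0 ∧ z₂ = 0) :
    (Psi (minusForm 2 F a b)).range.index = 1 := by
  have hG := good_minus (F := F) (m := 2) le_rfl a b hab
  have h1 := card_range_of_all hG (minus_exists 2 a b hab)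
  rw [Cfsg.Agent.Lib.FieldAutCard.card_ringAut (p := p) (f := f) hf (by rw [hF, hq]), card_O, coe_minusForm,
    Cfsg.Agent.S0288.result hF 3 (by omega) a b hab] at h1
  have h2 := ClassicalGeometry.PSUAutCount.card_mulAut_of hK (n := 4) (by norm_num) hp.1 hf hq
    (ClassicalGeometry.PSUAutMain.exists_toAut hK (by norm_num) (by omega))
  obtain ⟨e⟩ := LieClassical.KleinMinus.nonempty_equiv hF hK a b hab
  have h3 : Nat.card (MulAut (PSU 4 K q)) = Nat.card (MulAut (↥(E (minusForm 2 F a b)) ⧸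
      Subgroup.center ↥(E (minusForm 2 F a b)))) := by
    rw [← card_mulAut hG, coe_minusForm]
    exact Nat.card_congr (MulAut.congr e).toEquiv.symm
  have h4 := Cfsg.Agent.S0280.result hK 4 (by norm_num)
  have h5 := Subgroup.card_mul_index (Psi (minusForm 2 F a b)).range
  rw [h1, ← h3, h2] at h5
  have hq2 : 2 ≤ q := LieClassical.HermBasic.two_le hK
  obtain ⟨n, hn⟩ : ∃ n, n = Nat.card (PSU 4 K q) := ⟨_, rfl⟩
  obtain ⟨i, hi⟩ : ∃ i, i = (Psi (minusForm 2 F a b)).range.index := ⟨_, rfl⟩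
  obtain ⟨g, hg⟩ : ∃ g, g = Nat.gcd 4 (q + 1) := ⟨_, rfl⟩
  rw [← hn, ← hg] at h4 h5
  rw [← hi] at h5 ⊢
  simp only [Finset.prod_range_succ, Finset.prod_range_zero] at h4 h5
  norm_num at h4 h5
  have e1 : f * (2 * q ^ 6 * (q ^ 3 + 1) * ((q ^ 2 - 1) * (q ^ 4 - 1))) * i * (q + 1) =
      (2 * f) * (q ^ 6 * ((q + 1) * (q ^ 2 - 1) * (q ^ 3 + 1) * (q ^ 4 - 1))) := by
    have h6 : (g * (2 * f) * n) * (q + 1) = 2 * f * (g * ((q + 1) * n)) := by ring
    rw [h4] at h6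
    rw [← h5] at h6
    linarith [h6]
  have h2' : 0 < q ^ 2 - 1 := by
    have : 2 ^ 2 ≤ q ^ 2 := Nat.pow_le_pow_left hq2 2
    omega
  have h4' : 0 < q ^ 4 - 1 := by
    have : 2 ^ 4 ≤ q ^ 4 := Nat.pow_le_pow_left hq2 4
    omega
  have hpos : 0 < f * (2 * q ^ 6 * (q ^ 3 + 1) * ((q ^ 2 - 1) * (q ^ 4 - 1))) * (q + 1) := by positivity
  have e2 : (f * (2 * q ^ 6 * (q ^ 3 + 1) * ((q ^ 2 - 1) * (q ^ 4 - 1))) * (q + 1)) * i =
      (f * (2 * q ^ 6 * (q ^ 3 + 1) * ((q ^ 2 - 1) * (q ^ 4 - 1))) * (q + 1)) * 1 := by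
    rw [mul_one]
    calc _ = f * (2 * q ^ 6 * (q ^ 3 + 1) * ((q ^ 2 - 1) * (q ^ 4 - 1))) * i * (q + 1) := by ring
      _ = _ := by rw [e1]; ring
  exact Nat.eq_of_mul_eq_mul_left hpos e2

/-- **`PSU₄(q)`, `q` a power of `p > 3`.** -/
theorem good_psu4 {p : ℕ} [hp : Fact p.Prime] (hp3 : 3 < p) {K : Type u} [Field K] [Fintype K] [CharP K p] {q : ℕ}
    (hK : Fintype.card K = q ^ 2) : H687.Good p (PSU 4 K q) := by
  classical
  have : Fintype (fixF hK) := Fintype.ofFinite _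
  have : CharP (fixF hK) p := inferInstance
  have hF : Fintype.card (fixF hK) = q := by
    rw [← Nat.card_eq_fintype_card]
    exact card_fixed hK
  obtain ⟨f, hfp, hf⟩ := FiniteField.card (fixF hK) p
  have h2 : ringChar (fixF hK) ≠ 2 := by
    rw [ringChar.eq (fixF hK) p]
    omega
  obtain ⟨d, hd⟩ := FiniteField.exists_nonsquare h2
  have hab : ∀ z₁ z₂ : fixF hK, z₁ ^ 2 + 0 * z₁ * z₂ + (-d) * z₂ ^ 2 = 0 → z₁ = 0 ∧ z₂ = 0 := by
    intro z₁ z₂ h
    have h1 : z₁ ^ 2 = d * z₂ ^ 2 := by linear_combination h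
    by_cases h0 : z₂ = 0
    · subst h0
      refine ⟨?_, rfl⟩
      rw [zero_pow two_ne_zero, mul_zero] at h1
      exact pow_eq_zero_iff two_ne_zero |>.1 h1
    · exfalso
      apply hd
      refine ⟨z₁ / z₂, ?_⟩
      field_simp
      rw [h1]
  have hG := good_minus (F := fixF hK) (m := 2) le_rfl 0 (-d) hab
  have hi := index_eq_one (p := p) (f := f) f.pos (hF.symm.trans hf) hF hK 0 (-d) hab
  obtain ⟨e⟩ := LieClassical.KleinMinus.nonempty_equiv hF hK 0 (-d) hab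
  refine H687.Good.of_equiv e.symm ?_
  rw [← coe_minusForm]
  refine H687.Good.of_equiv (pomegaEquiv hG) (H877.Pol.orth_good hG ?_ hp3 ?_ ?_ ?_)
  · simp
  · rw [hi]; norm_num
  · rw [hi]; omega
  · obtain ⟨π, h1, h2, h3, h4, h5⟩ := CuspPGL.exists_cusp hp3 (fixF hK)
    refine ⟨π, ?_⟩
    convert (⟨h1, h2, h3, h4, h5⟩ : H687.IsCusp p (fixF hK) π)

end Cfsg.Agent.H650.GoodPSU4
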